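import Mathlib
import Cfsg.Agent.S2622
import Cfsg.Agent.S0752

/-!
# Involutions in characteristic two: the normal form

For a symmetric nondegenerate bilinear form `f` in characteristic two and `N` with `N² = 0`,
`f (N x) y = f x (N y)`, there is a linearly independent totally isotropic family `y` such that
`N v = ∑ f v (y (τ i)) • y i`, where `τ` is the identity if `x ↦ f x (N x)` is not zero
and a fixed-point-free swap if it is.
-/

set_option autoImplicit false
set_option linter.unusedSectionVars false
set_option linter.unusedSimpArgs false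

namespace Cfsg.Agent.Lib.Inv2.Core

open Module

variable {F V : Type*} [Field F] [AddCommGroup V] [Module F V]

/-- The normal form. -/
noncomputable def normN {I : Type*} [Fintype I] (f : LinearMap.BilinForm F V) (τ : I → I) (y : I → V) :
    V →ₗ[F] V :=
  ∑ i, (f.flip (y (τ i))).smulRight (y i)

theorem normN_apply {I : Type*} [Fintype I] (f : LinearMap.BilinForm F V) (τ : I → I) (y : I → V) (v : V) :
    normN f τ y v = ∑ i, f v (y (τ i)) • y i := by
  simp [normN, LinearMap.sum_apply]

section basic

variable {I : Type*} [Fintype I] {f : LinearMap.BilinForm F V} {τ : I → I} {y y' : I → V}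

/-- An isometry matching two families intertwines the normal forms. -/
theorem normN_semiconj (σ : V ≃ₗ[F] V) (hσ : ∀ a b, f (σ a) (σ b) = f a b) (h : ∀ i, σ (y i) = y' i) (v : V) :
    σ (normN f τ y v) = normN f τ y' (σ v) := by
  rw [normN_apply, normN_apply, map_sum]
  refine Finset.sum_congr rfl fun i _ => ?_
  rw [map_smul, h, ← h (τ i), hσ]

theorem normN_sq (hTI : ∀ i j, f (y i) (y j) = 0) (v : V) : normN f τ y (normN f τ y v) = 0 := by
  rw [normN_apply]
  refine Finset.sum_eq_zero fun i _ => ?_
  rw [normN_apply, map_sum, LinearMap.sum_apply]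
  have : ∑ j, f (f v (y (τ j)) • y j) (y (τ i)) = 0 := by
    refine Finset.sum_eq_zero fun j _ => ?_
    rw [map_smul, LinearMap.smul_apply, hTI, smul_zero]
  rw [this, zero_smul]

theorem normN_adj (hS : ∀ a b, f a b = f b a) (hτ : Function.Involutive τ) (x z : V) :
    f (normN f τ y x) z = f x (normN f τ y z) := by
  rw [normN_apply, normN_apply, map_sum, map_sum, LinearMap.sum_apply]
  simp only [map_smul, LinearMap.smul_apply, smul_eq_mul]
  rw [← Equiv.sum_comp hτ.toPerm]
  refine Finset.sum_congr rfl fun i _ => ?_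
  show f x (y (τ (τ i))) * f (y (τ i)) z = f z (y (τ i)) * f x (y i)
  rw [hτ i, hS (y (τ i)) z]
  ring

/-- `f v (N v)` in the normal form. -/
theorem f_normN (x : V) : f x (normN f τ y x) = ∑ i, f x (y (τ i)) * f x (y i) := by
  rw [normN_apply, map_sum]
  simp only [map_smul, smul_eq_mul]

end basic

section dual

variable {I : Type*} [Fintype I] [DecidableEq I] {f : LinearMap.BilinForm F V}

/-- The functionals `f · (y j)` are independent. -/
theorem exists_dual_family [FiniteDimensional F V] (hS : ∀ a b, f a b = f b a)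
    (hN : ∀ x, (∀ y, f x y = 0) → x = 0) {y : I → V}
    (hy : LinearIndependent F y) (c : I → F) : ∃ v, ∀ j, f v (y j) = c j := by
  let φ : V →ₗ[F] (I → F) := LinearMap.pi fun j => f.flip (y j)
  have hφ : LinearMap.range φ = ⊤ := by
    by_contra hne
    obtain ⟨ψ, hψ, hle⟩ := Submodule.exists_le_ker_of_lt_top _ (lt_top_iff_ne_top.mpr hne)
    apply hψ
    let d : I → F := fun j => ψ (Pi.single j 1)
    have hψd : ∀ a : I → F, ψ a = ∑ j, a j * d j := by
      intro a
      have := LinearMap.pi_apply_eq_sum_univ ψ a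
      rw [this]
      simp only [smul_eq_mul, d]
      refine Finset.sum_congr rfl fun j _ => ?_
      congr 2
      ext k
      simp [Pi.single_apply, eq_comm]
    have hz : ∑ j, d j • y j = 0 := by
      apply hN
      intro v
      have h1 : ψ (φ v) = 0 := hle ⟨v, rfl⟩
      rw [hψd] at h1
      rw [hS, map_sum]
      simp only [map_smul, smul_eq_mul]
      rw [← h1]
      refine Finset.sum_congr rfl fun j _ => ?_
      show _ = f v (y j) * d j
      rw [hS v, mul_comm, hS]
    have hd : ∀ j, d j = 0 := fun j => (Fintype.linearIndependent_iff.mp hy) d hz j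
    ext a
    simp only [LinearMap.comp_apply, LinearMap.zero_apply, LinearMap.single_apply]
    simp [d] at hd
    simp [hd]
  have hc : c ∈ LinearMap.range φ := by rw [hφ]; trivial
  obtain ⟨v, hv⟩ := hc
  exact ⟨v, fun j => congrFun hv j⟩

/-- Range of the normal form. -/
theorem range_normN [FiniteDimensional F V] (hS : ∀ a b, f a b = f b a)
    (hN : ∀ x, (∀ y, f x y = 0) → x = 0) {τ : I → I} (hτ : Function.Involutive τ) {y : I → V}
    (hy : LinearIndependent F y) :
    LinearMap.range (normN f τ y) = Submodule.span F (Set.range y) := by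
  apply le_antisymm
  · rintro _ ⟨v, rfl⟩
    rw [normN_apply]
    exact Submodule.sum_mem _ fun i _ => Submodule.smul_mem _ _ (Submodule.subset_span ⟨i, rfl⟩)
  · rw [Submodule.span_le]
    rintro _ ⟨j, rfl⟩
    obtain ⟨v, hv⟩ := exists_dual_family hS hN hy (fun k => if τ k = j then 1 else 0)
    refine ⟨v, ?_⟩
    rw [normN_apply]
    simp only [hv, hτ _]
    simp

theorem finrank_range_normN [FiniteDimensional F V] (hS : ∀ a b, f a b = f b a)
    (hN : ∀ x, (∀ y, f x y = 0) → x = 0) {τ : I → I} (hτ : Function.Involutive τ) {y : I → V}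
    (hy : LinearIndependent F y) :
    finrank F (LinearMap.range (normN f τ y)) = Fintype.card I := by
  rw [range_normN hS hN hτ hy, finrank_span_eq_card hy]

end dual

section family

variable {f : LinearMap.BilinForm F V} {N : V →ₗ[F] V}

/-- From a basis of a complement of `ker N` to the normal form. -/
theorem family_of_basis {I : Type*} [Fintype I] [DecidableEq I] {U : Submodule F V} (hU : IsCompl U (LinearMap.ker N))
    (hadj : ∀ x y, f (N x) y = f x (N y)) (hsq : ∀ x, N (N x) = 0) {τ : I → I} (hτ : Function.Involutive τ)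
    (b : Basis I F U) (hb : ∀ i j, f (b i : V) (N (b j : V)) = if i = τ j then 1 else 0) :
    LinearIndependent F (fun i => N (b i : V)) ∧ (∀ i j, f (N (b i : V)) (N (b j : V)) = 0) ∧
      (∀ v, N v = normN f τ (fun i => N (b i : V)) v) := by
  refine ⟨?_, ?_, ?_⟩
  · have hker : LinearMap.ker (N ∘ₗ U.subtype) = ⊥ := by
      rw [LinearMap.ker_eq_bot']
      rintro ⟨u, hu⟩ h
      have h2 : u ∈ U ⊓ LinearMap.ker N := ⟨hu, h⟩
      rw [hU.inf_eq_bot] at h2
      exact Subtype.ext ((Submodule.mem_bot F).mp h2)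
    exact b.linearIndependent.map' _ hker
  · intro i j
    rw [hadj, hsq, map_zero]
  · intro v
    have hv : v ∈ U ⊔ LinearMap.ker N := by rw [hU.sup_eq_top]; trivial
    obtain ⟨u, hu, k, hk, rfl⟩ := Submodule.mem_sup.mp hv
    rw [LinearMap.mem_ker] at hk
    have hu' : u = ∑ i, (b.repr ⟨u, hu⟩ i) • (b i : V) := by
      have := b.sum_repr ⟨u, hu⟩
      have h2 := congrArg (Subtype.val) this
      simp only [AddSubmonoidClass.coe_finsetSum, SetLike.val_smul] at h2
      exact h2.symm
    set c := b.repr ⟨u, hu⟩ with hc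
    rw [normN_apply, map_add, hk, add_zero]
    have hcoef : ∀ j, f (u + k) (N (b (τ j) : V)) = c j := by
      intro j
      rw [map_add, LinearMap.add_apply, ← hadj k, hk]
      rw [hu', map_sum, LinearMap.sum_apply]
      simp only [map_zero, LinearMap.zero_apply, add_zero, map_smul, LinearMap.smul_apply, hb, hτ _, smul_eq_mul]
      simp
    simp only [hcoef]
    conv_lhs => rw [hu', map_sum]
    simp only [map_smul]

variable [FiniteDimensional F V]

/-- The form on a complement of the kernel. -/
noncomputable def gU (f : LinearMap.BilinForm F V) (N : V →ₗ[F] V) (U : Submodule F V) :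
    LinearMap.BilinForm F U :=
  f.compl₁₂ U.subtype (N ∘ₗ U.subtype)

theorem gU_apply (f : LinearMap.BilinForm F V) (N : V →ₗ[F] V) (U : Submodule F V) (a b : U) :
    gU f N U a b = f (a : V) (N (b : V)) := rfl

theorem gU_symm (hS : ∀ a b, f a b = f b a) (hadj : ∀ x y, f (N x) y = f x (N y)) (U : Submodule F V) (a b : U) :
    gU f N U a b = gU f N U b a := by
  rw [gU_apply, gU_apply, ← hadj, hS]

theorem gU_nondeg (hS : ∀ a b, f a b = f b a) (hN : ∀ x, (∀ y, f x y = 0) → x = 0)
    (hadj : ∀ x y, f (N x) y = f x (N y)) {U : Submodule F V} (hU : IsCompl U (LinearMap.ker N)) :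
    (gU f N U).Nondegenerate := by
  have hl : ∀ a : U, (∀ b : U, gU f N U a b = 0) → a = 0 := by
    intro a ha
    have h1 : N (a : V) = 0 := by
      apply hN
      intro z
      have hz : z ∈ U ⊔ LinearMap.ker N := by rw [hU.sup_eq_top]; trivial
      obtain ⟨u, hu, k, hk, rfl⟩ := Submodule.mem_sup.mp hz
      rw [LinearMap.mem_ker] at hk
      rw [map_add, hadj, hadj, hk, map_zero, add_zero]
      exact ha ⟨u, hu⟩
    have h2 : (a : V) ∈ U ⊓ LinearMap.ker N := ⟨a.2, h1⟩
    rw [hU.inf_eq_bot] at h2
    exact Subtype.ext ((Submodule.mem_bot F).mp h2)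
  refine ⟨hl, fun a ha => hl a fun b => ?_⟩
  rw [gU_symm hS hadj]
  exact ha b

theorem finrank_compl_eq {U : Submodule F V} (hU : IsCompl U (LinearMap.ker N)) :
    finrank F U = finrank F (LinearMap.range N) := by
  have h1 := LinearMap.finrank_range_add_finrank_ker N
  have h2 := Submodule.finrank_add_eq_of_isCompl hU
  omega

variable [Finite F] [CharP F 2]

/-- The non-alternating case. -/
theorem exists_family_nonalt (hS : ∀ a b, f a b = f b a) (hN : ∀ x, (∀ y, f x y = 0) → x = 0)
    (hadj : ∀ x y, f (N x) y = f x (N y)) (hsq : ∀ x, N (N x) = 0) (hx : ∃ x, f x (N x) ≠ 0) :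
    ∃ y : Fin (finrank F (LinearMap.range N)) → V, LinearIndependent F y ∧ (∀ i j, f (y i) (y j) = 0) ∧
      (∀ v, N v = normN f id y v) ∧ ∀ i, ∃ u, N u = y i ∧ f u (y i) = 1 := by
  classical
  obtain ⟨U, hU'⟩ := Submodule.exists_isCompl (LinearMap.ker N)
  have hU := hU'.symm
  have hna : ∃ a : U, gU f N U a a ≠ 0 := by
    obtain ⟨x, hx⟩ := hx
    have hz : x ∈ U ⊔ LinearMap.ker N := by rw [hU.sup_eq_top]; trivial
    obtain ⟨u, hu, k, hk, rfl⟩ := Submodule.mem_sup.mp hz
    rw [LinearMap.mem_ker] at hk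
    refine ⟨⟨u, hu⟩, ?_⟩
    rw [gU_apply]
    intro h0
    apply hx
    rw [map_add N, hk, add_zero, map_add, LinearMap.add_apply, ← hadj k, hk]
    simpa using h0
  have hsymm : (gU f N U).IsSymm := ⟨fun a b => gU_symm hS hadj U a b⟩
  obtain ⟨b, hb⟩ := Cfsg.Agent.S2622.result (finrank_compl_eq hU) (gU f N U) hsymm (gU_nondeg hS hN hadj hU) hna
  have hb' : ∀ i j, f (b i : V) (N (b j : V)) = if i = id j then 1 else 0 := hb
  obtain ⟨h1, h2, h3⟩ := family_of_basis hU hadj hsq (τ := id) (fun _ => rfl) b hb'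
  refine ⟨fun i => N (b i : V), h1, h2, h3, fun i => ⟨(b i : V), rfl, ?_⟩⟩
  rw [hb' i i]
  simp

/-- The alternating case. -/
theorem exists_family_alt (hS : ∀ a b, f a b = f b a) (hN : ∀ x, (∀ y, f x y = 0) → x = 0)
    (hadj : ∀ x y, f (N x) y = f x (N y)) (hsq : ∀ x, N (N x) = 0) (hx : ∀ x, f x (N x) = 0) :
    ∃ r, finrank F (LinearMap.range N) = 2 * r ∧ ∃ y : Fin r ⊕ Fin r → V, LinearIndependent F y ∧
      (∀ i j, f (y i) (y j) = 0) ∧ (∀ v, N v = normN f Sum.swap y v) := by
  classical
  obtain ⟨U, hU'⟩ := Submodule.exists_isCompl (LinearMap.ker N)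
  have hU := hU'.symm
  have halt : (gU f N U).IsAlt := by
    intro a
    rw [gU_apply]
    have := hx (a : V)
    exact this
  have hnd := gU_nondeg hS hN hadj hU
  obtain ⟨r, k, b, h1, h2, h3, h4⟩ := Cfsg.Agent.S0752.result (gU f N U) halt
  have hk : k = 0 := by
    by_contra hk
    have hk0 : 0 < k := Nat.pos_of_ne_zero hk
    have := hnd.1 (b (Sum.inr ⟨0, hk0⟩)) (h4 ⟨0, hk0⟩)
    exact b.ne_zero _ this
  subst hk
  let b' : Basis (Fin r ⊕ Fin r) F U := b.reindex (Equiv.sumEmpty (Fin r ⊕ Fin r) (Fin 0))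
  have hb'a : ∀ i, b' i = b (Sum.inl i) := by
    intro i
    simp [b', Basis.reindex_apply]
  have hcard : finrank F (LinearMap.range N) = 2 * r := by
    rw [← finrank_compl_eq hU, finrank_eq_card_basis b']
    simp
    ring
  have h2eq : (2 : F) = 0 := by exact_mod_cast CharP.cast_eq_zero F 2
  have hneg : ∀ a : F, -a = a := fun a => by
    linear_combination (-a) * h2eq
  have hb : ∀ i j, f (b' i : V) (N (b' j : V)) = if i = Sum.swap j then 1 else 0 := by
    intro i j
    rw [hb'a, hb'a]
    rcases i with i | i <;> rcases j with j | j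
    · have := h2 i j
      rw [gU_apply] at this
      rw [this]
      simp
    · have := h1 i j
      rw [gU_apply] at this
      rw [this]
      simp
    · have := gU_symm hS hadj U (b (Sum.inl (Sum.inr i))) (b (Sum.inl (Sum.inl j)))
      rw [gU_apply, gU_apply] at this
      rw [this]
      have h5 := h1 j i
      rw [gU_apply] at h5
      rw [h5]
      simp [eq_comm]
    · have := h3 i j
      rw [gU_apply] at this
      rw [this]
      simp
  obtain ⟨h5, h6, h7⟩ := family_of_basis hU hadj hsq (τ := Sum.swap) Sum.swap_swap b' hb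
  exact ⟨r, hcard, fun i => N (b' i : V), h5, h6, h7⟩

end family

end Cfsg.Agent.Lib.Inv2.Core
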