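import Mathlib
import Cfsg.Agent.Lib.Inv2.Core
import Cfsg.Agent.Lib.Orth.Spin

/-!
# Involutions in characteristic two: group level

`nOf g = id - g`; the invariant `inv2 f g = (rank (g - 1), "alternating" flag)`; the counting lemma for conjugacy
classes of involutions.
-/

set_option autoImplicit false
set_option linter.unusedSectionVars false
set_option linter.unusedSimpArgs false

namespace Cfsg.Agent.Lib.Inv2.Group

open Module Cfsg.Agent.Lib.Inv2.Core Cfsg.Agent.Lib.Orth.Wall

/-! ### Counting classes -/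

section count

/-- An invariant separating the classes of involutions counts them. -/
theorem card_classes {G α : Type*} [Group G] (A : Finset α) (inv : G → α)
    (hinv : ∀ g h, orderOf g = 2 → IsConj g h → inv g = inv h)
    (hconj : ∀ g h, orderOf g = 2 → orderOf h = 2 → inv g = inv h → IsConj g h)
    (hA : ∀ g, orderOf g = 2 → inv g ∈ A)
    (hsurj : ∀ a ∈ A, ∃ g, orderOf g = 2 ∧ inv g = a) :
    Nat.card {C : ConjClasses G // ∃ g : G, ConjClasses.mk g = C ∧ orderOf g = 2} = A.card := by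
  classical
  let φ : {C : ConjClasses G // ∃ g : G, ConjClasses.mk g = C ∧ orderOf g = 2} → {a // a ∈ A} :=
    fun C => ⟨inv C.2.choose, hA _ C.2.choose_spec.2⟩
  have hφ : Function.Bijective φ := by
    constructor
    · rintro ⟨C, hC⟩ ⟨C', hC'⟩ h
      have h1 : inv hC.choose = inv hC'.choose := congrArg Subtype.val h
      have h2 := hconj _ _ hC.choose_spec.2 hC'.choose_spec.2 h1
      apply Subtype.ext
      show C = C'
      rw [← hC.choose_spec.1, ← hC'.choose_spec.1]
      exact ConjClasses.mk_eq_mk_iff_isConj.mpr h2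
    · rintro ⟨a, ha⟩
      obtain ⟨g, hg, hga⟩ := hsurj a ha
      refine ⟨⟨ConjClasses.mk g, g, rfl, hg⟩, Subtype.ext ?_⟩
      show inv _ = a
      have hs : ∃ g' : G, ConjClasses.mk g' = ConjClasses.mk g ∧ orderOf g' = 2 := ⟨g, rfl, hg⟩
      rw [← hga]
      exact hinv _ _ hs.choose_spec.2 (ConjClasses.mk_eq_mk_iff_isConj.mp hs.choose_spec.1)
  rw [Nat.card_eq_of_bijective φ hφ, Nat.card_eq_fintype_card, Fintype.card_coe]

/-- Transfer along a group isomorphism. -/
theorem card_classes_congr {G H : Type*} [Group G] [Group H] (e : G ≃* H) :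
    Nat.card {C : ConjClasses G // ∃ g : G, ConjClasses.mk g = C ∧ orderOf g = 2} =
      Nat.card {C : ConjClasses H // ∃ g : H, ConjClasses.mk g = C ∧ orderOf g = 2} := by
  classical
  have hmk : ∀ a b : G, IsConj (e a) (e b) ↔ IsConj a b := by
    intro a b
    constructor
    · intro h
      have := MonoidHom.map_isConj e.symm.toMonoidHom h
      simpa using this
    · intro h
      exact MonoidHom.map_isConj e.toMonoidHom h
  let φ : {C : ConjClasses G // ∃ g : G, ConjClasses.mk g = C ∧ orderOf g = 2} →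
      {C : ConjClasses H // ∃ g : H, ConjClasses.mk g = C ∧ orderOf g = 2} :=
    fun C => ⟨ConjClasses.mk (e C.2.choose), e C.2.choose, rfl, by
      rw [MulEquiv.orderOf_eq]; exact C.2.choose_spec.2⟩
  have hφ : Function.Bijective φ := by
    constructor
    · rintro ⟨C, hC⟩ ⟨C', hC'⟩ h
      have h1 : ConjClasses.mk (e hC.choose) = ConjClasses.mk (e hC'.choose) := congrArg Subtype.val h
      have h2 := (hmk _ _).mp (ConjClasses.mk_eq_mk_iff_isConj.mp h1)
      apply Subtype.ext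
      show C = C'
      rw [← hC.choose_spec.1, ← hC'.choose_spec.1]
      exact ConjClasses.mk_eq_mk_iff_isConj.mpr h2
    · rintro ⟨C, g, rfl, hg⟩
      have hg' : orderOf (e.symm g) = 2 := by rw [MulEquiv.orderOf_eq]; exact hg
      have hs : ∃ g' : G, ConjClasses.mk g' = ConjClasses.mk (e.symm g) ∧ orderOf g' = 2 := ⟨_, rfl, hg'⟩
      refine ⟨⟨ConjClasses.mk (e.symm g), hs⟩, Subtype.ext ?_⟩
      show ConjClasses.mk (e hs.choose) = ConjClasses.mk g
      apply ConjClasses.mk_eq_mk_iff_isConj.mpr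
      have h3 := ConjClasses.mk_eq_mk_iff_isConj.mp hs.choose_spec.1
      have h4 := (hmk _ _).mpr h3
      simpa using h4
  exact Nat.card_eq_of_bijective φ hφ

theorem orderOf_eq_two_iff {G : Type*} [Group G] {g : G} : orderOf g = 2 ↔ g * g = 1 ∧ g ≠ 1 := by
  constructor
  · intro h
    refine ⟨?_, ?_⟩
    · rw [← pow_two, ← h, pow_orderOf_eq_one]
    · rintro rfl
      simp at h
  · rintro ⟨h1, h2⟩
    haveI : Fact (Nat.Prime 2) := ⟨Nat.prime_two⟩
    exact orderOf_eq_prime (by rw [pow_two]; exact h1) h2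

end count

variable {F V : Type*} [Field F] [AddCommGroup V] [Module F V]

/-! ### From `g` to `N` -/

section toN

/-- `N = id - g`. -/
noncomputable def nOf (g : V ≃ₗ[F] V) : V →ₗ[F] V := (LinearMap.id : V →ₗ[F] V) - (g : V →ₗ[F] V)

@[simp] theorem nOf_apply (g : V ≃ₗ[F] V) (x : V) : nOf g x = x - g x := rfl

theorem range_nOf (g : V ≃ₗ[F] V) : LinearMap.range (nOf g) = movSp g := rfl

theorem ker_nOf (g : V ≃ₗ[F] V) : LinearMap.ker (nOf g) = fixSp g := rfl

variable [CharP F 2]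

theorem two_eq_zero' : (2 : F) = 0 := by exact_mod_cast CharP.cast_eq_zero F 2

theorem smul_two (F : Type*) {V : Type*} [Field F] [AddCommGroup V] [Module F V] [CharP F 2] (x : V) :
    x + x = 0 := by
  rw [← two_smul F x, two_eq_zero', zero_smul]

theorem sub_eq_add_char_two (F : Type*) {V : Type*} [Field F] [AddCommGroup V] [Module F V] [CharP F 2] (x y : V) :
    x - y = x + y := by
  rw [sub_eq_iff_eq_add, add_assoc, smul_two F, add_zero]

theorem nOf_sq {g : V ≃ₗ[F] V} (h2 : g * g = 1) (x : V) : nOf g (nOf g x) = 0 := by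
  have h3 : g (g x) = x := by
    have := congrArg (fun φ : V ≃ₗ[F] V => φ x) h2
    simpa using this
  simp only [nOf_apply, map_sub, h3]
  rw [sub_eq_add_char_two F, sub_eq_add_char_two F x (g x), sub_eq_add_char_two F (g x) x]
  have : x + g x + (g x + x) = (x + x) + (g x + g x) := by abel
  rw [this, smul_two F, smul_two F, add_zero]

theorem nOf_adj {f : LinearMap.BilinForm F V} {g : V ≃ₗ[F] V} (h2 : g * g = 1)
    (hiso : ∀ a b, f (g a) (g b) = f a b) (x z : V) : f (nOf g x) z = f x (nOf g z) := by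
  have h3 : g (g z) = z := by
    have := congrArg (fun φ : V ≃ₗ[F] V => φ z) h2
    simpa using this
  simp only [nOf_apply, map_sub, LinearMap.sub_apply]
  rw [← hiso x (g z), h3]

/-- `id - N` as an involutive automorphism. -/
noncomputable def ofN (N : V →ₗ[F] V) (hsq : ∀ x, N (N x) = 0) : V ≃ₗ[F] V :=
  LinearEquiv.ofInvolutive ((LinearMap.id : V →ₗ[F] V) - N) (fun x => by
    simp only [LinearMap.sub_apply, LinearMap.id_apply, map_sub, hsq, sub_zero]
    rw [sub_sub, smul_two F, sub_zero])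

@[simp] theorem ofN_apply (N : V →ₗ[F] V) (hsq : ∀ x, N (N x) = 0) (x : V) : ofN N hsq x = x - N x := rfl

theorem nOf_ofN (N : V →ₗ[F] V) (hsq : ∀ x, N (N x) = 0) : nOf (ofN N hsq) = N := by
  ext x
  simp

theorem ofN_mul_self (N : V →ₗ[F] V) (hsq : ∀ x, N (N x) = 0) : ofN N hsq * ofN N hsq = 1 := by
  ext x
  show ofN N hsq (ofN N hsq x) = x
  simp only [ofN_apply, map_sub, hsq, sub_zero]
  rw [sub_sub, smul_two F, sub_zero]

theorem ofN_ne_one {N : V →ₗ[F] V} (hsq : ∀ x, N (N x) = 0) (hN : N ≠ 0) : ofN N hsq ≠ 1 := by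
  intro h
  apply hN
  rw [← nOf_ofN N hsq, h]
  ext x
  simp [nOf_apply]

theorem ofN_iso {f : LinearMap.BilinForm F V} {N : V →ₗ[F] V} (hsq : ∀ x, N (N x) = 0)
    (hadj : ∀ x y, f (N x) y = f x (N y)) (a b : V) : f (ofN N hsq a) (ofN N hsq b) = f a b := by
  simp only [ofN_apply, map_sub, LinearMap.sub_apply, hadj, hsq, map_zero, sub_zero]
  have h2 : (2 : F) = 0 := two_eq_zero'
  linear_combination (- f a (N b)) * h2

/-- Conjugation via matching families. -/
theorem conj_of_families {I : Type*} [Fintype I] {f : LinearMap.BilinForm F V} {τ : I → I} {y y' : I → V}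
    {σ g g' : V ≃ₗ[F] V} (hσ : ∀ a b, f (σ a) (σ b) = f a b)
    (hN : ∀ v, nOf g v = normN f τ y v) (hN' : ∀ v, nOf g' v = normN f τ y' v) (h : ∀ i, σ (y i) = y' i) :
    σ * g * σ⁻¹ = g' := by
  ext x
  show σ (g (σ⁻¹ x)) = g' x
  have h1 : g (σ⁻¹ x) = σ⁻¹ x - nOf g (σ⁻¹ x) := by simp
  have h2 : σ (σ⁻¹ x) = x := by
    show (σ * σ⁻¹) x = x
    simp
  have h3 : g' x = x - nOf g' x := by simp
  rw [h1, h3, map_sub, h2, hN, normN_semiconj σ hσ h, h2, hN']

end toN

/-! ### The invariant -/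

section inv2

open _root_.Classical in
/-- The invariant of an involution. -/
noncomputable def inv2 (f : LinearMap.BilinForm F V) (g : V ≃ₗ[F] V) : ℕ × Bool :=
  (finrank F (LinearMap.range (nOf g)), decide (∀ x, f x (nOf g x) = 0))

theorem inv2_fst (f : LinearMap.BilinForm F V) (g : V ≃ₗ[F] V) :
    (inv2 f g).1 = finrank F (LinearMap.range (nOf g)) := rfl

theorem inv2_snd (f : LinearMap.BilinForm F V) (g : V ≃ₗ[F] V) :
    (inv2 f g).2 = true ↔ ∀ x, f x (nOf g x) = 0 := by
  simp only [inv2, decide_eq_true_eq]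

theorem nOf_conj (σ g : V ≃ₗ[F] V) (x : V) : nOf (σ * g * σ⁻¹) (σ x) = σ (nOf g x) := by
  simp only [nOf_apply, map_sub]
  congr 1
  show σ (g (σ⁻¹ (σ x))) = σ (g x)
  congr 2
  show (σ⁻¹ * σ) x = x
  simp

theorem range_nOf_conj (σ g : V ≃ₗ[F] V) :
    LinearMap.range (nOf (σ * g * σ⁻¹)) = (LinearMap.range (nOf g)).map (σ : V →ₗ[F] V) := by
  ext v
  constructor
  · rintro ⟨x, rfl⟩
    have h2 : σ (σ⁻¹ x) = x := by
      show (σ * σ⁻¹) x = x
      simp
    refine ⟨nOf g (σ⁻¹ x), ⟨_, rfl⟩, ?_⟩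
    show σ (nOf g (σ⁻¹ x)) = _
    rw [← nOf_conj, h2]
  · rintro ⟨_, ⟨x, rfl⟩, rfl⟩
    exact ⟨σ x, nOf_conj σ g x⟩

/-- `inv2` is invariant under conjugation by isometries. -/
theorem inv2_conj {f : LinearMap.BilinForm F V} {σ : V ≃ₗ[F] V} (hσ : ∀ a b, f (σ a) (σ b) = f a b) (g : V ≃ₗ[F] V) :
    inv2 f (σ * g * σ⁻¹) = inv2 f g := by
  apply Prod.ext
  · rw [inv2_fst, inv2_fst, range_nOf_conj, LinearEquiv.finrank_map_eq]
  · rw [Bool.eq_iff_iff, inv2_snd, inv2_snd]
    constructor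
    · intro h x
      have := h (σ x)
      rwa [nOf_conj, hσ] at this
    · intro h x
      have h2 : σ (σ⁻¹ x) = x := by
        show (σ * σ⁻¹) x = x
        simp
      have := h (σ⁻¹ x)
      rw [← hσ, ← nOf_conj, h2] at this
      exact this

theorem inv2_eq_iff {f : LinearMap.BilinForm F V} {g : V ≃ₗ[F] V} {s : ℕ} {b : Bool} :
    inv2 f g = (s, b) ↔ finrank F (LinearMap.range (nOf g)) = s ∧ ((∀ x, f x (nOf g x) = 0) ↔ b = true) := by
  rw [Prod.ext_iff, Bool.eq_iff_iff, inv2_snd]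
  rfl

end inv2

/-! ### Properties of the range -/

section range

variable [FiniteDimensional F V] [CharP F 2]

theorem finrank_range_add_ker (g : V ≃ₗ[F] V) :
    finrank F (LinearMap.range (nOf g)) + finrank F (LinearMap.ker (nOf g)) = finrank F V :=
  LinearMap.finrank_range_add_finrank_ker _

theorem range_le_ker {g : V ≃ₗ[F] V} (h2 : g * g = 1) : LinearMap.range (nOf g) ≤ LinearMap.ker (nOf g) := by
  rintro _ ⟨x, rfl⟩
  exact nOf_sq h2 x

theorem two_mul_finrank_le {g : V ≃ₗ[F] V} (h2 : g * g = 1) :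
    2 * finrank F (LinearMap.range (nOf g)) ≤ finrank F V := by
  have h3 := finrank_range_add_ker g
  have h4 := Submodule.finrank_mono (range_le_ker h2)
  omega

theorem finrank_range_pos {g : V ≃ₗ[F] V} (h1 : g ≠ 1) : 1 ≤ finrank F (LinearMap.range (nOf g)) := by
  by_contra h
  have h0 : finrank F (LinearMap.range (nOf g)) = 0 := by omega
  rw [Submodule.finrank_eq_zero] at h0
  apply h1
  ext x
  have : nOf g x ∈ LinearMap.range (nOf g) := ⟨x, rfl⟩
  rw [h0, Submodule.mem_bot, nOf_apply, sub_eq_zero] at this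
  exact this.symm

end range

/-! ### The family theorems, with an explicit size -/

section family

variable [FiniteDimensional F V] [Finite F] [CharP F 2] {f : LinearMap.BilinForm F V}

theorem exists_family_nonalt' (hS : ∀ a b, f a b = f b a) (hN : ∀ x, (∀ y, f x y = 0) → x = 0)
    {g : V ≃ₗ[F] V} (h2 : g * g = 1) (hiso : ∀ a b, f (g a) (g b) = f a b) (hx : ∃ x, f x (nOf g x) ≠ 0)
    {s : ℕ} (hs : finrank F (LinearMap.range (nOf g)) = s) :
    ∃ y : Fin s → V, LinearIndependent F y ∧ (∀ i j, f (y i) (y j) = 0) ∧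
      (∀ v, nOf g v = normN f id y v) ∧ ∀ i, ∃ u, nOf g u = y i ∧ f u (y i) = 1 := by
  subst hs
  exact exists_family_nonalt hS hN (nOf_adj h2 hiso) (nOf_sq h2) hx

theorem exists_family_alt' (hS : ∀ a b, f a b = f b a) (hN : ∀ x, (∀ y, f x y = 0) → x = 0)
    {g : V ≃ₗ[F] V} (h2 : g * g = 1) (hiso : ∀ a b, f (g a) (g b) = f a b) (hx : ∀ x, f x (nOf g x) = 0)
    {r : ℕ} (hs : finrank F (LinearMap.range (nOf g)) = 2 * r) :
    ∃ y : Fin r ⊕ Fin r → V, LinearIndependent F y ∧
      (∀ i j, f (y i) (y j) = 0) ∧ (∀ v, nOf g v = normN f Sum.swap y v) := by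
  obtain ⟨r', hr', y, h⟩ := exists_family_alt hS hN (nOf_adj h2 hiso) (nOf_sq h2) hx
  have : r' = r := by omega
  subst this
  exact ⟨y, h⟩

theorem exists_even_of_alt (hS : ∀ a b, f a b = f b a) (hN : ∀ x, (∀ y, f x y = 0) → x = 0)
    {g : V ≃ₗ[F] V} (h2 : g * g = 1) (hiso : ∀ a b, f (g a) (g b) = f a b) (hx : ∀ x, f x (nOf g x) = 0) :
    ∃ r, finrank F (LinearMap.range (nOf g)) = 2 * r := by
  obtain ⟨r', hr', _⟩ := exists_family_alt hS hN (nOf_adj h2 hiso) (nOf_sq h2) hx
  exact ⟨r', hr'⟩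

end family

/-! ### Existence from a family -/

section exist

variable [FiniteDimensional F V] [CharP F 2] {f : LinearMap.BilinForm F V}

theorem inv2_id {s : ℕ} (hs : 1 ≤ s) (hS : ∀ a b, f a b = f b a) (hN : ∀ x, (∀ y, f x y = 0) → x = 0)
    {y : Fin s → V} (hy : LinearIndependent F y) (hTI : ∀ i j, f (y i) (y j) = 0) :
    inv2 f (ofN (normN f id y) (normN_sq hTI)) = (s, false) := by
  rw [inv2_eq_iff, nOf_ofN, finrank_range_normN hS hN (fun _ => rfl) hy]
  refine ⟨by simp, ?_⟩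
  simp only [Bool.false_eq_true, iff_false, not_forall]
  classical
  obtain ⟨v, hv⟩ := exists_dual_family hS hN hy (Pi.single ⟨0, by omega⟩ 1)
  refine ⟨v, ?_⟩
  rw [f_normN]
  simp [hv, Pi.single_apply]

theorem f_normN_swap {r : ℕ} {y : Fin r ⊕ Fin r → V} (x : V) : f x (normN f Sum.swap y x) = 0 := by
  rw [f_normN, Fintype.sum_sum_type, ← Finset.sum_add_distrib]
  refine Finset.sum_eq_zero fun i _ => ?_
  simp only [Sum.swap_inl, Sum.swap_inr]
  have h2 : (2 : F) = 0 := two_eq_zero'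
  linear_combination (f x (y (Sum.inl i)) * f x (y (Sum.inr i))) * h2

theorem inv2_swap {r : ℕ} (hS : ∀ a b, f a b = f b a) (hN : ∀ x, (∀ y, f x y = 0) → x = 0)
    {y : Fin r ⊕ Fin r → V} (hy : LinearIndependent F y) (hTI : ∀ i j, f (y i) (y j) = 0) :
    inv2 f (ofN (normN f Sum.swap y) (normN_sq hTI)) = (2 * r, true) := by
  rw [inv2_eq_iff, nOf_ofN, finrank_range_normN hS hN Sum.swap_swap hy]
  refine ⟨by simp; ring, ?_⟩
  simp [f_normN_swap]

theorem normN_ne_zero {I : Type*} [Fintype I] [DecidableEq I] [Nonempty I] {τ : I → I} (hτ : Function.Involutive τ)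
    (hS : ∀ a b, f a b = f b a) (hN : ∀ x, (∀ y, f x y = 0) → x = 0)
    {y : I → V} (hy : LinearIndependent F y) : normN f τ y ≠ 0 := by
  intro h
  have h1 := finrank_range_normN hS hN hτ hy
  rw [h, LinearMap.range_zero, finrank_bot] at h1
  have := Fintype.card_pos (α := I)
  omega

end exist

end Cfsg.Agent.Lib.Inv2.Group
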