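import Mathlib
import Cfsg.Agent.Lib.Inv2.Group
import Cfsg.Agent.Lib.Classical.Alt
import Cfsg.Agent.Lib.Witt.Quadratic
import Cfsg.Agent.Lib.QuadFn.MaxSingular
import Cfsg.Agent.Lib.Orth.Refl

/-!
# Counting the classes of involutions in `Sp` and `O` in characteristic two
-/

set_option autoImplicit false
set_option linter.unusedSectionVars false
set_option linter.unusedSimpArgs false

namespace Cfsg.Agent.Lib.Inv2.Count

open Module Cfsg.Agent.Lib.Inv2.Core Cfsg.Agent.Lib.Inv2.Group Cfsg.Agent.Lib.Classical.Alt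
  Cfsg.Agent.Lib.Witt.Quadratic Cfsg.Agent.Lib.QuadFn.MaxSingular Cfsg.Agent.Lib.Orth.Refl
  QuadraticMap

/-- The possible invariants. -/
def allowed (m w : ℕ) : Finset (ℕ × Bool) :=
  (Finset.Icc 1 m).image (fun s => (s, false)) ∪ (Finset.Icc 1 (w / 2)).image (fun r => (2 * r, true))

theorem mem_allowed {m w s : ℕ} {b : Bool} :
    (s, b) ∈ allowed m w ↔ (b = false ∧ 1 ≤ s ∧ s ≤ m) ∨ (b = true ∧ ∃ r, s = 2 * r ∧ 1 ≤ r ∧ r ≤ w / 2) := by
  simp only [allowed, Finset.mem_union, Finset.mem_image, Finset.mem_Icc, Prod.mk.injEq]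
  constructor
  · rintro (⟨a, ⟨h1, h2⟩, rfl, rfl⟩ | ⟨r, ⟨h1, h2⟩, rfl, rfl⟩)
    · exact Or.inl ⟨rfl, h1, h2⟩
    · exact Or.inr ⟨rfl, r, rfl, h1, h2⟩
  · rintro (⟨rfl, h1, h2⟩ | ⟨rfl, r, rfl, h1, h2⟩)
    · exact Or.inl ⟨s, ⟨h1, h2⟩, rfl, rfl⟩
    · exact Or.inr ⟨r, ⟨h1, h2⟩, rfl, rfl⟩

theorem card_allowed (m w : ℕ) : (allowed m w).card = m + w / 2 := by
  rw [allowed, Finset.card_union_of_disjoint, Finset.card_image_of_injective, Finset.card_image_of_injective]
  · simp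
  · intro a b h
    simpa using h
  · intro a b h
    simpa using h
  · rw [Finset.disjoint_left]
    intro x hx hy
    obtain ⟨_, _, rfl⟩ := Finset.mem_image.mp hx
    obtain ⟨_, _, h⟩ := Finset.mem_image.mp hy
    simp at h

/-- Embedding `Fin r ⊕ Fin r` in `Fin w` when `2 r ≤ w`. -/
def sumEmb {r w : ℕ} (h : 2 * r ≤ w) : Fin r ⊕ Fin r → Fin w :=
  fun i => Fin.castLE (by omega) (finSumFinEquiv i)

theorem sumEmb_inj {r w : ℕ} (h : 2 * r ≤ w) : Function.Injective (sumEmb h) := by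
  intro a b hab
  exact finSumFinEquiv.injective (Fin.castLE_injective _ hab)

variable {F V : Type*} [Field F] [AddCommGroup V] [Module F V]

/-! ### The symplectic case -/

section sp

variable [FiniteDimensional F V] [Finite F] [CharP F 2] {B : LinearMap.BilinForm F V}

theorem card_isomGroup (hA : B.IsAlt) (hB : B.Nondegenerate) {m : ℕ} (hdim : finrank F V = 2 * m)
    (he : ∃ e : Fin m → V, LinearIndependent F e ∧ ∀ i j, B (e i) (e j) = 0) :
    Nat.card {C : ConjClasses (isomGroup B) // ∃ g : isomGroup B, ConjClasses.mk g = C ∧ orderOf g = 2} = m + m / 2 := by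
  have h2F : (2 : F) = 0 := two_eq_zero'
  have hS : ∀ a b, B a b = B b a := fun a b => by
    have := hA.neg_eq a b
    linear_combination this + (B a b) * h2F
  have hN : ∀ x, (∀ y, B x y = 0) → x = 0 := hB.1
  rw [← card_allowed m m]
  obtain ⟨e, he, heTI⟩ := he
  have horder : ∀ g : isomGroup B, orderOf g = 2 → (g : V ≃ₗ[F] V) * g = 1 ∧ (g : V ≃ₗ[F] V) ≠ 1 := by
    intro g hg
    obtain ⟨h1, h2⟩ := Group.orderOf_eq_two_iff.mp hg
    refine ⟨congrArg Subtype.val h1, fun h => h2 (Subtype.ext h)⟩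
  apply card_classes (allowed m m) (fun g : isomGroup B => inv2 B (g : V ≃ₗ[F] V))
  · intro g h _ hc
    obtain ⟨c, rfl⟩ := isConj_iff.mp hc
    exact (inv2_conj (fun a b => c.2 a b) _).symm
  · intro g h hg hh heq
    obtain ⟨g2, g1⟩ := horder g hg
    obtain ⟨h2, h1⟩ := horder h hh
    have hgiso : ∀ a b, B ((g : V ≃ₗ[F] V) a) ((g : V ≃ₗ[F] V) b) = B a b := g.2
    have hhiso : ∀ a b, B ((h : V ≃ₗ[F] V) a) ((h : V ≃ₗ[F] V) b) = B a b := h.2
    have heq1 : finrank F (LinearMap.range (nOf (g : V ≃ₗ[F] V))) = finrank F (LinearMap.range (nOf (h : V ≃ₗ[F] V))) :=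
      congrArg Prod.fst heq
    have heq2 : (∀ x, B x (nOf (g : V ≃ₗ[F] V) x) = 0) ↔ (∀ x, B x (nOf (h : V ≃ₗ[F] V) x) = 0) := by
      rw [← inv2_snd, ← inv2_snd]
      exact iff_of_eq (congrArg (fun p : ℕ × Bool => p.2 = true) heq)
    by_cases hx : ∀ x, B x (nOf (g : V ≃ₗ[F] V) x) = 0
    · obtain ⟨r, hr⟩ := exists_even_of_alt hS hN g2 hgiso hx
      obtain ⟨y, hy, hyT, hyN⟩ := exists_family_alt' hS hN g2 hgiso hx hr
      obtain ⟨y', hy', hyT', hyN'⟩ := exists_family_alt' hS hN h2 hhiso (heq2.mp hx) (heq1 ▸ hr)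
      obtain ⟨σ, hσ, hσy⟩ := witt_family hB hA y y' hy hy' (fun i j => by rw [hyT, hyT'])
      have hσ' := tGroup_le_isomGroup hA hσ
      refine isConj_iff.mpr ⟨⟨σ, hσ'⟩, Subtype.ext ?_⟩
      exact conj_of_families hσ' hyN hyN' hσy
    · push Not at hx
      have hx' : ∃ x, B x (nOf (h : V ≃ₗ[F] V) x) ≠ 0 := by
        by_contra hcon
        push Not at hcon
        exact absurd (heq2.mpr hcon) (by
          push Not
          exact hx)
      obtain ⟨y, hy, hyT, hyN, -⟩ := exists_family_nonalt' hS hN g2 hgiso hx rfl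
      obtain ⟨y', hy', hyT', hyN', -⟩ := exists_family_nonalt' hS hN h2 hhiso hx' heq1.symm
      obtain ⟨σ, hσ, hσy⟩ := witt_family hB hA y y' hy hy' (fun i j => by rw [hyT, hyT'])
      have hσ' := tGroup_le_isomGroup hA hσ
      refine isConj_iff.mpr ⟨⟨σ, hσ'⟩, Subtype.ext ?_⟩
      exact conj_of_families hσ' hyN hyN' hσy
  · intro g hg
    obtain ⟨g2, g1⟩ := horder g hg
    have hgiso : ∀ a b, B ((g : V ≃ₗ[F] V) a) ((g : V ≃ₗ[F] V) b) = B a b := g.2
    have h1 := finrank_range_pos g1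
    have h3 := two_mul_finrank_le g2
    rw [hdim] at h3
    have hi : inv2 B (g : V ≃ₗ[F] V) = ((inv2 B (g : V ≃ₗ[F] V)).1, (inv2 B (g : V ≃ₗ[F] V)).2) := rfl
    show inv2 B (g : V ≃ₗ[F] V) ∈ _
    rw [hi, mem_allowed, inv2_fst]
    by_cases hx : ∀ x, B x (nOf (g : V ≃ₗ[F] V) x) = 0
    · right
      obtain ⟨r, hr⟩ := exists_even_of_alt hS hN g2 hgiso hx
      refine ⟨(inv2_snd _ _).mpr hx, r, hr, by omega, ?_⟩
      rw [Nat.le_div_iff_mul_le (by norm_num)]
      omega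
    · left
      refine ⟨?_, h1, by omega⟩
      rw [Bool.eq_false_iff]
      intro h
      exact hx ((inv2_snd _ _).mp h)
  · rintro ⟨s, b⟩ hsb
    rcases mem_allowed.mp hsb with ⟨rfl, h1, h2⟩ | ⟨rfl, r, rfl, h1, h2⟩
    · let y : Fin s → V := fun i => e (Fin.castLE h2 i)
      have hy : LinearIndependent F y := he.comp _ (Fin.castLE_injective h2)
      have hyT : ∀ i j, B (y i) (y j) = 0 := fun i j => heTI _ _
      haveI : Nonempty (Fin s) := ⟨⟨0, by omega⟩⟩
      have hsq := normN_sq (τ := id) hyT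
      have hm : ofN (normN B id y) hsq ∈ isomGroup B :=
        fun a b => ofN_iso hsq (normN_adj hS (fun _ => rfl)) a b
      refine ⟨⟨_, hm⟩, ?_, inv2_id h1 hS hN hy hyT⟩
      rw [Group.orderOf_eq_two_iff]
      refine ⟨Subtype.ext (ofN_mul_self _ hsq), fun h => ?_⟩
      exact ofN_ne_one hsq (normN_ne_zero (fun _ => rfl) hS hN hy) (congrArg Subtype.val h)
    · have hr2 : 2 * r ≤ m := by
        have := (Nat.le_div_iff_mul_le (by norm_num)).mp h2
        omega
      let y : Fin r ⊕ Fin r → V := fun i => e (sumEmb hr2 i)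
      have hy : LinearIndependent F y := he.comp _ (sumEmb_inj hr2)
      have hyT : ∀ i j, B (y i) (y j) = 0 := fun i j => heTI _ _
      haveI : Nonempty (Fin r ⊕ Fin r) := ⟨Sum.inl ⟨0, by omega⟩⟩
      have hsq := normN_sq (τ := Sum.swap) hyT
      have hm : ofN (normN B Sum.swap y) hsq ∈ isomGroup B :=
        fun a b => ofN_iso hsq (normN_adj hS Sum.swap_swap) a b
      refine ⟨⟨_, hm⟩, ?_, inv2_swap hS hN hy hyT⟩
      rw [Group.orderOf_eq_two_iff]
      refine ⟨Subtype.ext (ofN_mul_self _ hsq), fun h => ?_⟩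
      exact ofN_ne_one hsq (normN_ne_zero Sum.swap_swap hS hN hy) (congrArg Subtype.val h)

end sp

end Cfsg.Agent.Lib.Inv2.Count
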