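import Mathlib
import Cfsg.Agent.Lib.Inv2.Count

/-!
# Classes of involutions in the orthogonal group, characteristic two
-/

set_option autoImplicit false
set_option linter.unusedSectionVars false
set_option linter.unusedSimpArgs false

namespace Cfsg.Agent.Lib.Inv2.Orth

open Module Cfsg.Agent.Lib.Inv2.Core Cfsg.Agent.Lib.Inv2.Group Cfsg.Agent.Lib.Inv2.Count
  Cfsg.Agent.Lib.Witt.Quadratic Cfsg.Agent.Lib.QuadFn.MaxSingular Cfsg.Agent.Lib.Orth.Refl
  QuadraticMap

variable {F V : Type*} [Field F] [AddCommGroup V] [Module F V] {Q : QuadraticForm F V}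

theorem Q_nOf {g : V ≃ₗ[F] V} (hg : g ∈ isoGroup Q) (x : V) : Q (nOf g x) = polar Q x (nOf g x) := by
  rw [nOf_apply, Q_sub, hg x, polar_sub_right, polar_self_eq]
  ring

theorem Q_sum_TI {I : Type*} [DecidableEq I] (s : Finset I) (c : I → F) {y : I → V}
    (hTI : ∀ i j, polar Q (y i) (y j) = 0) :
    Q (∑ i ∈ s, c i • y i) = ∑ i ∈ s, c i ^ 2 * Q (y i) := by
  induction s using Finset.induction_on with
  | empty => simp
  | insert a s ha ih =>
    rw [Finset.sum_insert ha, Finset.sum_insert ha, Q_add, ih, QuadraticMap.map_smul, smul_eq_mul, ← pow_two]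
    have : polar Q (c a • y a) (∑ i ∈ s, c i • y i) = 0 := by
      have h1 : polar Q (c a • y a) (∑ i ∈ s, c i • y i) = polarBilin Q (c a • y a) (∑ i ∈ s, c i • y i) := rfl
      rw [h1, map_sum]
      refine Finset.sum_eq_zero fun i _ => ?_
      show polar Q (c a • y a) (c i • y i) = 0
      rw [polar_smul_left, polar_smul_right, hTI]
      simp
    rw [this, add_zero]

variable [CharP F 2] [FiniteDimensional F V] [Finite F]

local notation "pf" => (polarBilin Q : LinearMap.BilinForm F V)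

theorem pf_symm (a b : V) : pf a b = pf b a := polar_comm Q a b

theorem Q_sub_normN_id {I : Type*} [Fintype I] {y : I → V} (hTI : ∀ i j, pf (y i) (y j) = 0)
    (hQ1 : ∀ i, Q (y i) = 1) (x : V) : Q (x - normN pf id y x) = Q x := by
  classical
  have h1 : polar Q x (normN pf id y x) = ∑ i, pf x (y i) * pf x (y i) := f_normN (f := pf) (τ := id) (y := y) x
  have h2 : Q (normN pf id y x) = ∑ i, pf x (y i) * pf x (y i) := by
    rw [normN_apply]
    show Q (∑ i, (pf x (y i)) • y i) = _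
    rw [Q_sum_TI _ _ hTI]
    refine Finset.sum_congr rfl fun i _ => ?_
    rw [hQ1]
    ring
  rw [Q_sub, h1, h2]
  ring

theorem Q_sub_normN_swap {r : ℕ} {y : Fin r ⊕ Fin r → V} (hTI : ∀ i j, pf (y i) (y j) = 0)
    (hQ0 : ∀ i, Q (y i) = 0) (x : V) : Q (x - normN pf Sum.swap y x) = Q x := by
  classical
  have h1 : polar Q x (normN pf Sum.swap y x) = 0 := f_normN_swap (f := pf) (y := y) x
  have h2 : Q (normN pf Sum.swap y x) = 0 := by
    rw [normN_apply, Q_sum_TI _ _ hTI]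
    refine Finset.sum_eq_zero fun i _ => ?_
    rw [hQ0, mul_zero]
  rw [Q_sub, h1, h2]
  ring

theorem f_sq_eq {y : V} {g : V ≃ₗ[F] V} (hg : g ∈ isoGroup Q) {u : V} (hu : nOf g u = y) (h : pf u y = 1) :
    Q y = 1 := by
  rw [← hu, Q_nOf hg, hu]
  exact h

/-- The key conjugacy statement. -/
theorem exists_conj (hQ : (polarBilin Q).Nondegenerate) {g h : V ≃ₗ[F] V} (hg : g ∈ isoGroup Q) (hh : h ∈ isoGroup Q)
    (g2 : g * g = 1) (h2 : h * h = 1) (heq : inv2 pf g = inv2 pf h) :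
    ∃ σ ∈ isoGroup Q, σ * g * σ⁻¹ = h := by
  have hS : ∀ a b, pf a b = pf b a := pf_symm
  have hN : ∀ x, (∀ y, pf x y = 0) → x = 0 := hQ.1
  have hgiso : ∀ a b, pf (g a) (g b) = pf a b := fun a b => polar_eq_of_preserves g hg a b
  have hhiso : ∀ a b, pf (h a) (h b) = pf a b := fun a b => polar_eq_of_preserves h hh a b
  have heq1 : finrank F (LinearMap.range (nOf g)) = finrank F (LinearMap.range (nOf h)) :=
    congrArg Prod.fst heq
  have heq2 : (∀ x, pf x (nOf g x) = 0) ↔ (∀ x, pf x (nOf h x) = 0) := by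
    rw [← inv2_snd, ← inv2_snd]
    exact iff_of_eq (congrArg (fun p : ℕ × Bool => p.2 = true) heq)
  by_cases hx : ∀ x, pf x (nOf g x) = 0
  · obtain ⟨r, hr⟩ := exists_even_of_alt hS hN g2 hgiso hx
    obtain ⟨y, hy, hyT, hyN⟩ := exists_family_alt' hS hN g2 hgiso hx hr
    obtain ⟨y', hy', hyT', hyN'⟩ := exists_family_alt' hS hN h2 hhiso (heq2.mp hx) (heq1 ▸ hr)
    have hQ0 : ∀ {k : V ≃ₗ[F] V} {z : Fin r ⊕ Fin r → V}, k ∈ isoGroup Q → (∀ x, pf x (nOf k x) = 0) →
        LinearIndependent F z → (∀ v, nOf k v = normN pf Sum.swap z v) → ∀ i, Q (z i) = 0 := by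
      intro k z hk hkx hz hkN i
      have hmem : z i ∈ LinearMap.range (normN pf Sum.swap z) := by
        rw [range_normN hS hN Sum.swap_swap hz]
        exact Submodule.subset_span ⟨i, rfl⟩
      obtain ⟨v, hv⟩ := hmem
      rw [← hv, ← hkN, Q_nOf hk]
      exact hkx v
    obtain ⟨σ, hσ, hσy⟩ := witt_family hQ y y' hy hy' (fun i j => by
      have h1 := hyT i j
      have h2 := hyT' i j
      exact h1.trans h2.symm) (fun i => by
        rw [hQ0 hg hx hy hyN, hQ0 hh (heq2.mp hx) hy' hyN'])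
    exact ⟨σ, hσ, conj_of_families (fun a b => polar_eq_of_preserves σ hσ a b) hyN hyN' hσy⟩
  · push Not at hx
    have hx' : ∃ x, pf x (nOf h x) ≠ 0 := by
      by_contra hcon
      push Not at hcon
      exact absurd (heq2.mpr hcon) (by
        push Not
        exact hx)
    obtain ⟨y, hy, hyT, hyN, hyU⟩ := exists_family_nonalt' hS hN g2 hgiso hx rfl
    obtain ⟨y', hy', hyT', hyN', hyU'⟩ := exists_family_nonalt' hS hN h2 hhiso hx' heq1.symm
    obtain ⟨σ, hσ, hσy⟩ := witt_family hQ y y' hy hy' (fun i j => by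
      have h1 := hyT i j
      have h2 := hyT' i j
      exact h1.trans h2.symm) (fun i => by
        obtain ⟨u, hu, hu1⟩ := hyU i
        obtain ⟨u', hu', hu1'⟩ := hyU' i
        rw [f_sq_eq hg hu hu1, f_sq_eq hh hu' hu1'])
    exact ⟨σ, hσ, conj_of_families (fun a b => polar_eq_of_preserves σ hσ a b) hyN hyN' hσy⟩

/-- In the alternating case the range of `N` is totally singular. -/
theorem ts_range {g : V ≃ₗ[F] V} (hg : g ∈ isoGroup Q) (hx : ∀ x, pf x (nOf g x) = 0) :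
    TS (⇑Q) (LinearMap.range (nOf g)) := by
  rintro _ ⟨x, rfl⟩
  rw [Q_nOf hg]
  exact hx x

theorem inv2_mem_allowed (hQ : (polarBilin Q).Nondegenerate) {m w : ℕ} (hdim : finrank F V = 2 * m)
    (hTS : ∀ U : Submodule F V, TS (⇑Q) U → finrank F U ≤ w)
    {g : V ≃ₗ[F] V} (hg : g ∈ isoGroup Q) (g2 : g * g = 1) (g1 : g ≠ 1) :
    inv2 pf g ∈ allowed m w := by
  have hS : ∀ a b, pf a b = pf b a := pf_symm
  have hN : ∀ x, (∀ y, pf x y = 0) → x = 0 := hQ.1
  have hgiso : ∀ a b, pf (g a) (g b) = pf a b := fun a b => polar_eq_of_preserves g hg a b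
  have h1 := finrank_range_pos g1
  have h3 := two_mul_finrank_le g2
  rw [hdim] at h3
  have hi : inv2 pf g = ((inv2 pf g).1, (inv2 pf g).2) := rfl
  rw [hi, mem_allowed, inv2_fst]
  by_cases hx : ∀ x, pf x (nOf g x) = 0
  · right
    obtain ⟨r, hr⟩ := exists_even_of_alt hS hN g2 hgiso hx
    refine ⟨(inv2_snd _ _).mpr hx, r, hr, by omega, ?_⟩
    rw [Nat.le_div_iff_mul_le (by norm_num)]
    have := hTS _ (ts_range hg hx)
    omega
  · left
    refine ⟨?_, h1, by omega⟩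
    rw [Bool.eq_false_iff]
    intro h
    exact hx ((inv2_snd _ _).mp h)

/-- Existence of an involution with given invariant. -/
theorem exists_of_id {s : ℕ} (hs : 1 ≤ s) (hQ : (polarBilin Q).Nondegenerate) {y : Fin s → V}
    (hy : LinearIndependent F y) (hTI : ∀ i j, polar Q (y i) (y j) = 0) (hQ1 : ∀ i, Q (y i) = 1) :
    ∃ t ∈ isoGroup Q, t * t = 1 ∧ t ≠ 1 ∧ inv2 pf t = (s, false) ∧
      LinearMap.range (nOf t) = Submodule.span F (Set.range y) := by
  have hS : ∀ a b, pf a b = pf b a := pf_symm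
  have hN : ∀ x, (∀ y, pf x y = 0) → x = 0 := hQ.1
  have hyT : ∀ i j, pf (y i) (y j) = 0 := hTI
  haveI : Nonempty (Fin s) := ⟨⟨0, by omega⟩⟩
  have hsq := normN_sq (τ := id) hyT
  refine ⟨ofN (normN pf id y) hsq, fun x => ?_, ofN_mul_self _ hsq,
    ofN_ne_one hsq (normN_ne_zero (fun _ => rfl) hS hN hy), inv2_id hs hS hN hy hyT, ?_⟩
  · exact Q_sub_normN_id hyT hQ1 x
  · rw [nOf_ofN, range_normN hS hN (fun _ => rfl) hy]

theorem exists_of_swap {r : ℕ} (hr : 1 ≤ r) (hQ : (polarBilin Q).Nondegenerate) {y : Fin r ⊕ Fin r → V}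
    (hy : LinearIndependent F y) (hTI : ∀ i j, polar Q (y i) (y j) = 0) (hQ0 : ∀ i, Q (y i) = 0) :
    ∃ t ∈ isoGroup Q, t * t = 1 ∧ t ≠ 1 ∧ inv2 pf t = (2 * r, true) ∧
      LinearMap.range (nOf t) = Submodule.span F (Set.range y) := by
  have hS : ∀ a b, pf a b = pf b a := pf_symm
  have hN : ∀ x, (∀ y, pf x y = 0) → x = 0 := hQ.1
  have hyT : ∀ i j, pf (y i) (y j) = 0 := hTI
  haveI : Nonempty (Fin r ⊕ Fin r) := ⟨Sum.inl ⟨0, by omega⟩⟩
  have hsq := normN_sq (τ := Sum.swap) hyT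
  refine ⟨ofN (normN pf Sum.swap y) hsq, fun x => ?_, ofN_mul_self _ hsq,
    ofN_ne_one hsq (normN_ne_zero Sum.swap_swap hS hN hy), inv2_swap hS hN hy hyT, ?_⟩
  · exact Q_sub_normN_swap hyT hQ0 x
  · rw [nOf_ofN, range_normN hS hN Sum.swap_swap hy]

/-- The orthogonal group data: a singular frame of size `w`, and a frame of size `m` of norm-one vectors. -/
structure Frames (Q : QuadraticForm F V) (m w : ℕ) : Prop where
  hdim : finrank F V = 2 * m
  nd : (polarBilin Q).Nondegenerate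
  e : ∃ e : Fin w → V, LinearIndependent F e ∧ (∀ i, Q (e i) = 0) ∧ ∀ i j, polar Q (e i) (e j) = 0
  y : ∃ y : Fin m → V, LinearIndependent F y ∧ (∀ i, Q (y i) = 1) ∧ ∀ i j, polar Q (y i) (y j) = 0
  ts : ∀ U : Submodule F V, TS (⇑Q) U → finrank F U ≤ w

/-- The count of involution classes in the orthogonal group. -/
theorem card_isoGroup {m w : ℕ} (H : Frames Q m w) :
    Nat.card {C : ConjClasses (isoGroup Q) // ∃ g : isoGroup Q, ConjClasses.mk g = C ∧ orderOf g = 2} = m + w / 2 := by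
  rw [← card_allowed m w]
  have horder : ∀ g : isoGroup Q, orderOf g = 2 → (g : V ≃ₗ[F] V) * g = 1 ∧ (g : V ≃ₗ[F] V) ≠ 1 := by
    intro g hg
    obtain ⟨h1, h2⟩ := Group.orderOf_eq_two_iff.mp hg
    refine ⟨congrArg Subtype.val h1, fun h => h2 (Subtype.ext h)⟩
  obtain ⟨e, he, heQ, heT⟩ := H.e
  obtain ⟨yy, hyy, hyyQ, hyyT⟩ := H.y
  apply card_classes (allowed m w) (fun g : isoGroup Q => inv2 pf (g : V ≃ₗ[F] V))
  · intro g h _ hc
    obtain ⟨c, rfl⟩ := isConj_iff.mp hc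
    exact (inv2_conj (fun a b => polar_eq_of_preserves _ c.2 a b) _).symm
  · intro g h hg hh heq
    obtain ⟨σ, hσ, hc⟩ := exists_conj H.nd g.2 h.2 (horder g hg).1 (horder h hh).1 heq
    exact isConj_iff.mpr ⟨⟨σ, hσ⟩, Subtype.ext hc⟩
  · intro g hg
    exact inv2_mem_allowed H.nd H.hdim H.ts g.2 (horder g hg).1 (horder g hg).2
  · rintro ⟨s, b⟩ hsb
    rcases mem_allowed.mp hsb with ⟨rfl, h1, h2⟩ | ⟨rfl, r, rfl, h1, h2⟩
    · obtain ⟨t, ht, t2, t1, hinv, -⟩ := exists_of_id h1 H.nd (hyy.comp _ (Fin.castLE_injective h2))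
        (fun i j => hyyT _ _) (fun i => hyyQ _)
      refine ⟨⟨t, ht⟩, Group.orderOf_eq_two_iff.mpr ⟨Subtype.ext t2, fun h => t1 (congrArg Subtype.val h)⟩, hinv⟩
    · have hr2 : 2 * r ≤ w := by
        have := (Nat.le_div_iff_mul_le (by norm_num)).mp h2
        omega
      obtain ⟨t, ht, t2, t1, hinv, -⟩ := exists_of_swap h1 H.nd (he.comp _ (sumEmb_inj hr2))
        (fun i j => heT _ _) (fun i => heQ _)
      refine ⟨⟨t, ht⟩, Group.orderOf_eq_two_iff.mpr ⟨Subtype.ext t2, fun h => t1 (congrArg Subtype.val h)⟩, hinv⟩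

end Cfsg.Agent.Lib.Inv2.Orth
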