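import Mathlib
import Cfsg.Agent.Lib.Inv2.Orth
import Cfsg.Agent.Lib.Orth.Forms
import Cfsg.Agent.Lib.Orth.Parity
import Cfsg.Agent.Lib.Orth.Trans

/-!
# The frames of the two concrete quadratic forms
-/

set_option autoImplicit false
set_option linter.unusedSectionVars false
set_option linter.unusedSimpArgs false

namespace Cfsg.Agent.Lib.Inv2.Models

open Module Cfsg Cfsg.Agent.Lib.Inv2.Orth Cfsg.Agent.Lib.Orth.Forms Cfsg.Agent.Lib.QuadFn.MaxSingular
  Cfsg.Agent.Lib.Witt.Quadratic Cfsg.Agent.Lib.Orth.Refl QuadraticMap Cfsg.Agent.Lib.Inv2.Group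

variable {F : Type*} [Field F]

section plus

variable {m : ℕ}

theorem polar_plus (u v : Fin m ⊕ Fin m → F) :
    polar (plusForm m F) u v = ∑ i, (u (Sum.inl i) * v (Sum.inr i) + v (Sum.inl i) * u (Sum.inr i)) := by
  simp only [polar, coe_plusForm, quadFormPlus, Pi.add_apply, ← Finset.sum_sub_distrib]
  refine Finset.sum_congr rfl fun i _ => ?_
  ring

theorem polar_plus' (u v : Fin m ⊕ Fin m → F) :
    (polarBilin (plusForm m F)) u v = ∑ i, (u (Sum.inl i) * v (Sum.inr i) + v (Sum.inl i) * u (Sum.inr i)) :=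
  polar_plus u v

variable [Finite F] [CharP F 2]

theorem frames_plus (m : ℕ) : Frames (plusForm m F) m m := by
  classical
  haveI : Fintype F := Fintype.ofFinite F
  have h2 : (2 : F) = 0 := two_eq_zero'
  have hinl : ∀ i, (Sum.inl i : Fin m ⊕ Fin m) ≠ Sum.inr i := fun i => by simp
  refine ⟨by simp; ring, plusForm_nondeg m, ⟨fun i => Pi.single (Sum.inl i) 1, ?_, ?_, ?_⟩,
    ⟨fun i => Pi.single (Sum.inl i) 1 + Pi.single (Sum.inr i) 1, ?_, ?_, ?_⟩, ?_⟩
  · rw [Fintype.linearIndependent_iff]
    intro c hc k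
    have := congrFun hc (Sum.inl k)
    simpa [Finset.sum_apply, Pi.single_apply] using this
  · intro i
    show quadFormPlus m F _ = 0
    simp [quadFormPlus, Pi.single_apply]
  · intro i j
    rw [polar_plus]
    simp [Pi.single_apply]
  · rw [Fintype.linearIndependent_iff]
    intro c hc k
    have := congrFun hc (Sum.inl k)
    simpa [Finset.sum_apply, Pi.single_apply] using this
  · intro i
    show quadFormPlus m F _ = 1
    simp [quadFormPlus, Pi.single_apply]
  · intro i j
    rw [polar_plus]
    rw [Finset.sum_eq_single i]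
    · by_cases hij : i = j
      · subst hij
        simp [Pi.single_apply]
        linear_combination h2
      · simp [Pi.single_apply, hij, Ne.symm hij]
    · intro b _ hb
      simp [Pi.single_apply, hb, Ne.symm hb]
    · simp
  · intro U hU
    have S := Cfsg.Agent.Lib.Orth.Parity.qspace (plusForm_nondeg (F := F) m)
    exact S.finrank_ts_le (by simp; ring) hU

end plus

section minus

variable {k : ℕ} {a b : F}

theorem polar_minus (u v : (Fin k ⊕ Fin k) ⊕ Fin 2 → F) :
    polar (minusForm k F a b) u v = (∑ i, (u (Sum.inl (Sum.inl i)) * v (Sum.inl (Sum.inr i)) +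
        v (Sum.inl (Sum.inl i)) * u (Sum.inl (Sum.inr i)))) +
      (2 * u (Sum.inr 0) * v (Sum.inr 0) + a * (u (Sum.inr 0) * v (Sum.inr 1) + v (Sum.inr 0) * u (Sum.inr 1)) +
        2 * b * u (Sum.inr 1) * v (Sum.inr 1)) := by
  simp only [polar, coe_minusForm, quadFormMinus, Pi.add_apply]
  have : ∀ i, (u (Sum.inl (Sum.inl i)) + v (Sum.inl (Sum.inl i))) * (u (Sum.inl (Sum.inr i)) + v (Sum.inl (Sum.inr i)))
      = u (Sum.inl (Sum.inl i)) * u (Sum.inl (Sum.inr i)) + v (Sum.inl (Sum.inl i)) * v (Sum.inl (Sum.inr i))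
       + (u (Sum.inl (Sum.inl i)) * v (Sum.inl (Sum.inr i)) + v (Sum.inl (Sum.inl i)) * u (Sum.inl (Sum.inr i))) := by
    intro i
    ring
  simp only [this, Finset.sum_add_distrib]
  ring

variable [Finite F] [CharP F 2]

/-- The maximal singular frame of the elliptic form. -/
theorem minus_singular_values (hab : ∀ z₁ z₂ : F, z₁ ^ 2 + a * z₁ * z₂ + b * z₂ ^ 2 = 0 → z₁ = 0 ∧ z₂ = 0)
    {u : (Fin k ⊕ Fin k) ⊕ Fin 2 → F} (hQ : minusForm k F a b u = 0)
    (hpol : ∀ i : Fin k, polar (minusForm k F a b) (Pi.single (Sum.inl (Sum.inl i)) 1) u = 0) :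
    u = ∑ i : Fin k, u (Sum.inl (Sum.inl i)) • (Pi.single (Sum.inl (Sum.inl i)) 1 : (Fin k ⊕ Fin k) ⊕ Fin 2 → F) := by
  classical
  have h2 : ∀ i : Fin k, u (Sum.inl (Sum.inr i)) = 0 := by
    intro i
    have := hpol i
    rw [polar_minus, Finset.sum_eq_single i] at this
    · simpa [Pi.single_apply] using this
    · intro j _ hj
      simp [Pi.single_apply, hj]
    · simp
  have h3 : u (Sum.inr 0) ^ 2 + a * u (Sum.inr 0) * u (Sum.inr 1) + b * u (Sum.inr 1) ^ 2 = 0 := by
    have : quadFormMinus k F a b u = 0 := hQ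
    simpa [quadFormMinus, h2] using this
  obtain ⟨h4, h5⟩ := hab _ _ h3
  ext x
  rcases x with (i | i) | i
  · simp [Finset.sum_apply, Pi.single_apply]
  · simp [Finset.sum_apply, Pi.single_apply, h2]
  · fin_cases i
    · simp [Finset.sum_apply, Pi.single_apply, h4]
    · simp [Finset.sum_apply, Pi.single_apply, h5]

theorem frames_minus (k : ℕ) (hab : ∀ z₁ z₂ : F, z₁ ^ 2 + a * z₁ * z₂ + b * z₂ ^ 2 = 0 → z₁ = 0 ∧ z₂ = 0) :
    Frames (minusForm k F a b) (k + 1) k := by
  classical
  haveI : Fintype F := Fintype.ofFinite F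
  have h2 : (2 : F) = 0 := two_eq_zero'
  have hnd := minusForm_nondeg k hab
  let e : Fin k → ((Fin k ⊕ Fin k) ⊕ Fin 2 → F) := fun i => Pi.single (Sum.inl (Sum.inl i)) 1
  have heL : LinearIndependent F e := by
    rw [Fintype.linearIndependent_iff]
    intro c hc j
    have := congrFun hc (Sum.inl (Sum.inl j))
    simpa [e, Finset.sum_apply, Pi.single_apply] using this
  have heQ : ∀ i, minusForm k F a b (e i) = 0 := by
    intro i
    show quadFormMinus k F a b _ = 0
    simp [quadFormMinus, e, Pi.single_apply]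
  have heT : ∀ i j, polar (minusForm k F a b) (e i) (e j) = 0 := by
    intro i j
    rw [polar_minus]
    simp [e, Pi.single_apply]
  refine ⟨by simp; ring, hnd, ⟨e, heL, heQ, heT⟩, ?_, ?_⟩
  · let y0 : Fin k → ((Fin k ⊕ Fin k) ⊕ Fin 2 → F) :=
      fun i => Pi.single (Sum.inl (Sum.inl i)) 1 + Pi.single (Sum.inl (Sum.inr i)) 1
    let z : (Fin k ⊕ Fin k) ⊕ Fin 2 → F := Pi.single (Sum.inr 0) 1
    let y : Fin (k + 1) → ((Fin k ⊕ Fin k) ⊕ Fin 2 → F) := Fin.snoc y0 z
    have hy0 : ∀ i, y (Fin.castSucc i) = y0 i := fun i => by simp [y]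
    have hyl : y (Fin.last k) = z := by simp [y]
    refine ⟨y, ?_, ?_, ?_⟩
    · rw [Fintype.linearIndependent_iff]
      intro c hc j
      rw [Fin.sum_univ_castSucc] at hc
      simp only [hy0, hyl] at hc
      have hlast : c (Fin.last k) = 0 := by
        have := congrFun hc (Sum.inr 0)
        simpa [y0, z, Finset.sum_apply, Pi.single_apply] using this
      refine Fin.lastCases hlast (fun i => ?_) j
      have := congrFun hc (Sum.inl (Sum.inl i))
      simpa [y0, z, Finset.sum_apply, Pi.single_apply] using this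
    · intro i
      show quadFormMinus k F a b _ = 1
      refine Fin.lastCases ?_ (fun i => ?_) i
      · rw [hyl]
        simp [quadFormMinus, z, Pi.single_apply]
      · rw [hy0]
        simp [quadFormMinus, y0, Pi.single_apply]
    · intro i j
      rw [polar_minus]
      refine Fin.lastCases ?_ (fun i => ?_) i
      · refine Fin.lastCases ?_ (fun j => ?_) j
        · rw [hyl]
          simp [z, Pi.single_apply, h2]
        · rw [hyl, hy0]
          simp [z, y0, Pi.single_apply]
      · refine Fin.lastCases ?_ (fun j => ?_) j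
        · rw [hyl, hy0]
          simp [z, y0, Pi.single_apply]
        · rw [hy0, hy0]
          rw [Finset.sum_eq_single i]
          · by_cases hij : i = j
            · subst hij
              simp [y0, Pi.single_apply]
              linear_combination h2
            · simp [y0, Pi.single_apply, hij, Ne.symm hij]
          · intro c _ hc
            simp [y0, Pi.single_apply, hc, Ne.symm hc]
          · simp
  · intro U hU
    by_contra hlt
    push Not at hlt
    have hle : k + 1 ≤ finrank F U := hlt
    let B := Module.finBasis F U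
    let w : Fin (k + 1) → ((Fin k ⊕ Fin k) ⊕ Fin 2 → F) := fun i => (B (Fin.castLE hle i) : _)
    have hwL : LinearIndependent F w := by
      have h1 := B.linearIndependent.map' U.subtype (Submodule.ker_subtype U)
      exact h1.comp _ (Fin.castLE_injective hle)
    have hwU : ∀ i, w i ∈ U := fun i => (B _).2
    have S := Cfsg.Agent.Lib.Orth.Parity.qspace hnd
    have hwT : ∀ i j, polar (minusForm k F a b) (w i) (w j) = 0 := fun i j =>
      S.ts_polar hU (hwU i) (hwU j)
    obtain ⟨σ, hσ, hσw⟩ := witt_family hnd (fun i : Fin k => w (Fin.castSucc i)) e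
      (hwL.comp _ (Fin.castSucc_injective k)) heL (fun i j => by rw [hwT, heT])
      (fun i => by rw [hU _ (hwU _), heQ])
    set u := σ (w (Fin.last k)) with hu
    have huQ : minusForm k F a b u = 0 := by
      rw [hu, hσ, hU _ (hwU _)]
    have hupol : ∀ i : Fin k, polar (minusForm k F a b) (Pi.single (Sum.inl (Sum.inl i)) 1) u = 0 := by
      intro i
      have : (Pi.single (Sum.inl (Sum.inl i)) 1 : (Fin k ⊕ Fin k) ⊕ Fin 2 → F) = σ (w (Fin.castSucc i)) :=
        (hσw i).symm
      rw [this, hu, polar_eq_of_preserves σ hσ, hwT]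
    have hcoord := minus_singular_values hab huQ hupol
    have hfin := Fintype.linearIndependent_iff.mp hwL
      (Fin.snoc (fun i : Fin k => - u (Sum.inl (Sum.inl i))) 1) (by
        rw [Fin.sum_univ_castSucc]
        simp only [Fin.snoc_castSucc, Fin.snoc_last, one_smul]
        apply σ.injective
        rw [map_add, map_sum, map_zero, ← hu]
        simp only [map_smul]
        have : ∀ i : Fin k, σ (w (Fin.castSucc i)) = e i := hσw
        simp only [this]
        rw [add_comm, eq_comm]
        rw [← sub_eq_zero] 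
        simp only [neg_smul, Finset.sum_neg_distrib]
        rw [zero_sub, neg_eq_zero, ← sub_eq_add_neg, sub_eq_zero]
        exact hcoord) (Fin.last k)
    simp at hfin

end minus

end Cfsg.Agent.Lib.Inv2.Models
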