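import Mathlib
import Cfsg.Agent.Lib.Inv2.Models
import Cfsg.Agent.Lib.Orth.Bridge

/-!
# Classes of involutions in `Ω` in characteristic two
-/

set_option autoImplicit false
set_option linter.unusedSectionVars false
set_option linter.unusedSimpArgs false

namespace Cfsg.Agent.Lib.Inv2.OmegaCount

open Module Cfsg.Agent.Lib.Inv2.Core Cfsg.Agent.Lib.Inv2.Group Cfsg.Agent.Lib.Inv2.Count
  Cfsg.Agent.Lib.Inv2.Orth Cfsg.Agent.Lib.Witt.Quadratic Cfsg.Agent.Lib.QuadFn.MaxSingular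
  Cfsg.Agent.Lib.Orth.Refl Cfsg.Agent.Lib.Orth.Wall Cfsg.Agent.Lib.Orth.Gen Cfsg.Agent.Lib.Orth.Spin
  Cfsg.Agent.Lib.Orth.Omega Cfsg.Agent.Lib.Orth.Parity Cfsg.Agent.Lib.Orth.Trans QuadraticMap

/-- The possible invariants in `Ω`. -/
def allowedO (m w : ℕ) : Finset ((ℕ × Bool) × Bool) :=
  (Finset.Icc 1 (m / 2)).image (fun r => ((2 * r, false), false)) ∪
    (Finset.Icc 1 (w / 2)).image (fun r => ((2 * r, true), false)) ∪
      (if w = m ∧ Even m then {((m, true), true)} else ∅)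

theorem mem_allowedO {m w s : ℕ} {b e : Bool} :
    ((s, b), e) ∈ allowedO m w ↔ (∃ r, s = 2 * r ∧ 1 ≤ r ∧ r ≤ m / 2 ∧ b = false ∧ e = false) ∨
      (∃ r, s = 2 * r ∧ 1 ≤ r ∧ r ≤ w / 2 ∧ b = true ∧ e = false) ∨
        (w = m ∧ Even m ∧ s = m ∧ b = true ∧ e = true) := by
  simp only [allowedO, Finset.mem_union, Finset.mem_image, Finset.mem_Icc, Prod.mk.injEq]
  constructor
  · rintro ((⟨r, ⟨h1, h2⟩, ⟨rfl, rfl⟩, rfl⟩ | ⟨r, ⟨h1, h2⟩, ⟨rfl, rfl⟩, rfl⟩) | h)
    · exact Or.inl ⟨r, rfl, h1, h2, rfl, rfl⟩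
    · exact Or.inr (Or.inl ⟨r, rfl, h1, h2, rfl, rfl⟩)
    · split_ifs at h with hc
      · simp only [Finset.mem_singleton, Prod.mk.injEq] at h
        obtain ⟨⟨rfl, rfl⟩, rfl⟩ := h
        exact Or.inr (Or.inr ⟨hc.1, hc.2, rfl, rfl, rfl⟩)
      · simp at h
  · rintro (⟨r, rfl, h1, h2, rfl, rfl⟩ | ⟨r, rfl, h1, h2, rfl, rfl⟩ | ⟨h1, h2, rfl, rfl, rfl⟩)
    · exact Or.inl (Or.inl ⟨r, ⟨h1, h2⟩, ⟨rfl, rfl⟩, rfl⟩)
    · exact Or.inl (Or.inr ⟨r, ⟨h1, h2⟩, ⟨rfl, rfl⟩, rfl⟩)
    · right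
      rw [if_pos ⟨h1, h2⟩]
      simp

theorem card_allowedO (m w : ℕ) :
    (allowedO m w).card = m / 2 + w / 2 + if w = m ∧ Even m then 1 else 0 := by
  rw [allowedO, Finset.card_union_of_disjoint, Finset.card_union_of_disjoint, Finset.card_image_of_injective,
    Finset.card_image_of_injective]
  · congr 1
    · simp
    · split_ifs <;> simp
  · intro a b h
    simpa using h
  · intro a b h
    simpa using h
  · rw [Finset.disjoint_left]
    intro x hx hy
    obtain ⟨_, _, rfl⟩ := Finset.mem_image.mp hx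
    obtain ⟨_, _, h⟩ := Finset.mem_image.mp hy
    simp at h
  · rw [Finset.disjoint_left]
    intro x hx hy
    split_ifs at hy with hc
    · rw [Finset.mem_singleton] at hy
      subst hy
      rcases Finset.mem_union.mp hx with hx | hx
      · obtain ⟨_, _, h⟩ := Finset.mem_image.mp hx
        simp at h
      · obtain ⟨_, _, h⟩ := Finset.mem_image.mp hx
        simp at h
    · simp at hy

variable {F V : Type*} [Field F] [AddCommGroup V] [Module F V] [CharP F 2] [FiniteDimensional F V] [Finite F]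
  {Q : QuadraticForm F V}

local notation "pf" => (polarBilin Q : LinearMap.BilinForm F V)

section basic

theorem rp_eq_finrank (g : V ≃ₗ[F] V) : rp g = ((finrank F (LinearMap.range (nOf g)) : ℕ) : ZMod 2) := rfl

theorem rp_eq_zero_iff_even (g : V ≃ₗ[F] V) : rp g = 0 ↔ Even (finrank F (LinearMap.range (nOf g))) := by
  rw [rp_eq_finrank, ZMod.natCast_eq_zero_iff_even]

/-- The parity function. -/
noncomputable def par (m : ℕ) (L R : Submodule F V) : ZMod 2 := ((m - finrank F (L ⊓ R : Submodule F V) : ℕ) : ZMod 2)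

variable (hQ : (polarBilin Q).Nondegenerate) (hgen : ∀ g ∈ isoGroup Q, g ∈ W Q)
include hQ hgen

theorem mem_comm_iff (g : isoGroup Q) : g ∈ commutator (isoGroup Q) ↔ rp (g : V ≃ₗ[F] V) = 0 :=
  (mem_commutator_iff hQ hgen g).trans ⟨fun h => h.1, fun h => ⟨h, sqc_of_char_two _⟩⟩

theorem par_map {m : ℕ} (hdim : finrank F V = 2 * m) {L R : Submodule F V} (hL : TS (⇑Q) L)
    (hLm : finrank F L = m) (hR : TS (⇑Q) R) (hRm : finrank F R = m) {τ : V ≃ₗ[F] V} (hτ : τ ∈ isoGroup Q) :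
    par m L (R.map (τ : V →ₗ[F] V)) = rp τ + par m L R := by
  obtain ⟨ρ, hρ, rfl⟩ := exists_iso_map_ts hQ hL hR (hLm.trans hRm.symm)
  have h1 := rp_eq hQ hdim hL hLm (hgen _ hρ)
  have h2 := rp_eq hQ hdim hL hLm (hgen _ (Subgroup.mul_mem _ hτ hρ))
  rw [rp_mul hQ hgen hτ hρ, h1, map_mul_eq] at h2
  exact h2.symm

theorem par_self {m : ℕ} {L : Submodule F V} (hLm : finrank F L = m) : par m L L = 0 := by
  rw [par, inf_idem, hLm]
  simp

end basic

variable (Q) in
/-- The splitting invariant. -/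
def Eps (m : ℕ) (L : Submodule F V) (g : V ≃ₗ[F] V) : Prop :=
  finrank F (LinearMap.range (nOf g)) = m ∧ (∀ x, pf x (nOf g x) = 0) ∧ par m L (LinearMap.range (nOf g)) = 1

variable (Q) in
open _root_.Classical in
/-- The invariant in `Ω`. -/
noncomputable def invO (m : ℕ) (L : Submodule F V) (g : V ≃ₗ[F] V) : (ℕ × Bool) × Bool :=
  (inv2 pf g, decide (Eps Q m L g))

theorem invO_snd {m : ℕ} {L : Submodule F V} {g : V ≃ₗ[F] V} : (invO Q m L g).2 = true ↔ Eps Q m L g := by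
  simp only [invO, decide_eq_true_eq]

theorem eps_iff_of_eq {m : ℕ} {L : Submodule F V} {g h : V ≃ₗ[F] V} (he : invO Q m L g = invO Q m L h) :
    Eps Q m L g ↔ Eps Q m L h := by
  rw [← invO_snd, ← invO_snd, he]

theorem exists_nonsing_fixed {m w : ℕ} (H : Frames Q m w) {g : V ≃ₗ[F] V} (hg : g ∈ isoGroup Q) (g2 : g * g = 1)
    (hn : ¬ (finrank F (LinearMap.range (nOf g)) = m ∧ ∀ x, pf x (nOf g x) = 0)) : ∃ v, g v = v ∧ Q v ≠ 0 := by
  by_contra hcon
  push Not at hcon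
  apply hn
  have hker : TS (⇑Q) (LinearMap.ker (nOf g)) := by
    intro v hv
    apply hcon
    rw [LinearMap.mem_ker, nOf_apply, sub_eq_zero] at hv
    exact hv.symm
  have S := qspace H.nd
  have h1 := S.finrank_ts_le H.hdim hker
  have h2 := two_mul_finrank_le g2
  have h3 := finrank_range_add_ker g
  rw [H.hdim] at h2 h3
  refine ⟨by omega, fun x => ?_⟩
  have h4 : pf x (nOf g x) = Q (nOf g x) := (Q_nOf hg x).symm
  rw [h4]
  exact hker _ (nOf_sq g2 x)

theorem ts_span {I : Type*} [Fintype I] {e : I → V} (heQ : ∀ i, Q (e i) = 0)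
    (heT : ∀ i j, polar Q (e i) (e j) = 0) : TS (⇑Q) (Submodule.span F (Set.range e)) := by
  classical
  intro v hv
  obtain ⟨c, rfl⟩ := (Submodule.mem_span_range_iff_exists_fun F).mp hv
  rw [Q_sum_TI _ _ heT]
  exact Finset.sum_eq_zero fun i _ => by rw [heQ, mul_zero]

theorem frames_w_le {m w : ℕ} (H : Frames Q m w) : w ≤ m := by
  obtain ⟨e, he', heQ, heT⟩ := H.e
  have := (qspace H.nd).finrank_ts_le H.hdim (ts_span heQ heT)
  rwa [finrank_span_eq_card he', Fintype.card_fin] at this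

theorem frames_w_eq {m w : ℕ} (H : Frames Q m w) {R : Submodule F V} (hR : TS (⇑Q) R) (hRm : finrank F R = m) :
    w = m := by
  have := H.ts _ hR
  have := frames_w_le H
  omega

/-- The parity changes by `rp`. -/
theorem par_conj {m w : ℕ} (H : Frames Q m w) (hgen : ∀ g ∈ isoGroup Q, g ∈ W Q) {L : Submodule F V}
    (hL : w = m → TS (⇑Q) L ∧ finrank F L = m)
    {g σ : V ≃ₗ[F] V} (hg : g ∈ isoGroup Q) (hσ : σ ∈ isoGroup Q)
    (hgm : finrank F (LinearMap.range (nOf g)) = m) (hgalt : ∀ x, pf x (nOf g x) = 0) :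
    par m L (LinearMap.range (nOf (σ * g * σ⁻¹))) = rp σ + par m L (LinearMap.range (nOf g)) := by
  have hRts := ts_range hg hgalt
  obtain ⟨hLts, hLm⟩ := hL (frames_w_eq H hRts hgm)
  rw [range_nOf_conj]
  exact par_map H.nd hgen H.hdim hLts hLm hRts hgm hσ

theorem inv2_conj_iso {g σ : V ≃ₗ[F] V} (hσ : σ ∈ isoGroup Q) : inv2 pf (σ * g * σ⁻¹) = inv2 pf g :=
  inv2_conj (fun a b => polar_eq_of_preserves σ hσ a b) g

theorem alt_conj_iff {g σ : V ≃ₗ[F] V} (hσ : σ ∈ isoGroup Q) :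
    (∀ x, pf x (nOf (σ * g * σ⁻¹) x) = 0) ↔ ∀ x, pf x (nOf g x) = 0 := by
  rw [← inv2_snd, inv2_conj_iso hσ, inv2_snd]

theorem finrank_conj {g σ : V ≃ₗ[F] V} (hσ : σ ∈ isoGroup Q) :
    finrank F (LinearMap.range (nOf (σ * g * σ⁻¹))) = finrank F (LinearMap.range (nOf g)) :=
  congrArg Prod.fst (inv2_conj_iso (g := g) hσ)

theorem invO_conj {m w : ℕ} (H : Frames Q m w) (hgen : ∀ g ∈ isoGroup Q, g ∈ W Q) {L : Submodule F V}
    (hL : w = m → TS (⇑Q) L ∧ finrank F L = m)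
    {g σ : V ≃ₗ[F] V} (hg : g ∈ isoGroup Q) (hσ : σ ∈ isoGroup Q) (hrp : rp σ = 0) :
    invO Q m L (σ * g * σ⁻¹) = invO Q m L g := by
  apply Prod.ext
  · exact inv2_conj_iso hσ
  · rw [Bool.eq_iff_iff, invO_snd, invO_snd]
    constructor
    · rintro ⟨h1, h2, h3⟩
      have h1' : finrank F (LinearMap.range (nOf g)) = m := by rw [← h1, finrank_conj hσ]
      have h2' := (alt_conj_iff hσ).mp h2
      refine ⟨h1', h2', ?_⟩
      rw [par_conj H hgen hL hg hσ h1' h2', hrp, zero_add] at h3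
      exact h3
    · rintro ⟨h1, h2, h3⟩
      refine ⟨by rw [finrank_conj hσ, h1], (alt_conj_iff hσ).mpr h2, ?_⟩
      rw [par_conj H hgen hL hg hσ h1 h2, hrp, zero_add]
      exact h3

/-- Adjusting the conjugator into `Ω`. -/
theorem exists_conj_omega {m w : ℕ} (H : Frames Q m w) (hgen : ∀ g ∈ isoGroup Q, g ∈ W Q) {L : Submodule F V}
    (hL : w = m → TS (⇑Q) L ∧ finrank F L = m)
    {g h : V ≃ₗ[F] V} (hg : g ∈ isoGroup Q) (hh : h ∈ isoGroup Q) (g2 : g * g = 1) (h2 : h * h = 1)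
    (he : invO Q m L g = invO Q m L h) :
    ∃ σ ∈ isoGroup Q, rp σ = 0 ∧ σ * g * σ⁻¹ = h := by
  have hQ := H.nd
  have heq : inv2 pf g = inv2 pf h := congrArg Prod.fst he
  obtain ⟨σ, hσ, hc⟩ := exists_conj hQ hg hh g2 h2 heq
  have hrp : rp σ = 0 ∨ rp σ = 1 := by
    generalize rp σ = z
    revert z
    decide
  rcases hrp with h0 | h1
  · exact ⟨σ, hσ, h0, hc⟩
  by_cases hsplit : finrank F (LinearMap.range (nOf g)) = m ∧ ∀ x, pf x (nOf g x) = 0
  · exfalso
    obtain ⟨hgm, hgalt⟩ := hsplit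
    have hp := par_conj H hgen hL hg hσ hgm hgalt
    rw [hc] at hp
    have he2 := eps_iff_of_eq he
    have hhm : finrank F (LinearMap.range (nOf h)) = m := by
      rw [← hgm]
      exact (congrArg Prod.fst heq).symm
    have hhalt : ∀ x, pf x (nOf h x) = 0 := by
      rw [← inv2_snd, ← heq, inv2_snd]
      exact hgalt
    have hiff : par m L (LinearMap.range (nOf g)) = 1 ↔ par m L (LinearMap.range (nOf h)) = 1 := by
      constructor
      · intro h3
        exact (he2.mp ⟨hgm, hgalt, h3⟩).2.2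
      · intro h3
        exact (he2.mpr ⟨hhm, hhalt, h3⟩).2.2
    rw [h1] at hp
    revert hiff hp
    generalize par m L (LinearMap.range (nOf h)) = a
    generalize par m L (LinearMap.range (nOf g)) = b
    revert a b
    decide
  · obtain ⟨v, hv, hQv⟩ := exists_nonsing_fixed H hg g2 hsplit
    refine ⟨σ * refl Q v, Subgroup.mul_mem _ hσ (refl_mem Q v), ?_, ?_⟩
    · rw [rp_mul hQ hgen hσ (refl_mem Q v), h1, rp_refl hQ hQv]
      decide
    · have hcomm : refl Q v * g = g * refl Q v := by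
        have h3 := conj_refl Q hg v
        rw [hv] at h3
        rw [← h3]
        nth_rewrite 1 [← h3]
        group
      calc σ * refl Q v * g * (σ * refl Q v)⁻¹ = σ * (refl Q v * g) * (refl Q v)⁻¹ * σ⁻¹ := by group
        _ = σ * (g * refl Q v) * (refl Q v)⁻¹ * σ⁻¹ := by rw [hcomm]
        _ = σ * g * σ⁻¹ := by group
        _ = h := hc

/-- The count of classes of involutions in `Ω`. -/
theorem card_commutator {m w : ℕ} (hm : 1 ≤ m) (H : Frames Q m w) (hgen : ∀ g ∈ isoGroup Q, g ∈ W Q) :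
    Nat.card {C : ConjClasses (commutator (isoGroup Q)) //
      ∃ g : commutator (isoGroup Q), ConjClasses.mk g = C ∧ orderOf g = 2} =
      m / 2 + w / 2 + if w = m ∧ Even m then 1 else 0 := by
  have hQ := H.nd
  rw [← card_allowedO]
  obtain ⟨e, he, heQ, heT⟩ := H.e
  obtain ⟨yy, hyy, hyyQ, hyyT⟩ := H.y
  set L := Submodule.span F (Set.range e) with hLdef
  have hLts : TS (⇑Q) L := ts_span heQ heT
  have hLfin : finrank F L = w := by
    rw [hLdef, finrank_span_eq_card he, Fintype.card_fin]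
  have hL : w = m → TS (⇑Q) L ∧ finrank F L = m := fun h => ⟨hLts, hLfin.trans h⟩
  have horder : ∀ g : commutator (isoGroup Q), orderOf g = 2 →
      (((g : isoGroup Q) : V ≃ₗ[F] V)) * ((g : isoGroup Q) : V ≃ₗ[F] V) = 1 ∧ (((g : isoGroup Q) : V ≃ₗ[F] V)) ≠ 1 := by
    intro g hg
    obtain ⟨h1, h2⟩ := Group.orderOf_eq_two_iff.mp hg
    refine ⟨congrArg (fun x : commutator (isoGroup Q) => ((x : isoGroup Q) : V ≃ₗ[F] V)) h1, fun h => h2 ?_⟩
    exact Subtype.ext (Subtype.ext h)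
  have hmk : ∀ t ∈ isoGroup Q, t * t = 1 → t ≠ 1 → rp t = 0 →
      ∃ g : commutator (isoGroup Q), orderOf g = 2 ∧ ((g : isoGroup Q) : V ≃ₗ[F] V) = t := by
    intro t ht t2 t1 hrp
    refine ⟨⟨⟨t, ht⟩, (mem_comm_iff hQ hgen ⟨t, ht⟩).mpr hrp⟩, ?_, rfl⟩
    rw [Group.orderOf_eq_two_iff]
    refine ⟨Subtype.ext (Subtype.ext t2), fun h => t1 ?_⟩
    exact congrArg (fun x : commutator (isoGroup Q) => ((x : isoGroup Q) : V ≃ₗ[F] V)) h
  apply card_classes (allowedO m w) (fun g : commutator (isoGroup Q) => invO Q m L ((g : isoGroup Q) : V ≃ₗ[F] V))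
  · intro g h _ hc
    obtain ⟨c, rfl⟩ := isConj_iff.mp hc
    have hrp := (mem_comm_iff hQ hgen (c : isoGroup Q)).mp c.2
    exact (invO_conj H hgen hL g.1.2 c.1.2 hrp).symm
  · intro g h hg hh heq
    obtain ⟨σ, hσ, hrp, hc⟩ := exists_conj_omega H hgen hL g.1.2 h.1.2 (horder g hg).1 (horder h hh).1 heq
    refine isConj_iff.mpr ⟨⟨⟨σ, hσ⟩, (mem_comm_iff hQ hgen ⟨σ, hσ⟩).mpr hrp⟩, ?_⟩
    exact Subtype.ext (Subtype.ext hc)
  · intro g hg
    obtain ⟨g2, g1⟩ := horder g hg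
    have hrp := (mem_comm_iff hQ hgen (g : isoGroup Q)).mp g.2
    rw [rp_eq_zero_iff_even] at hrp
    obtain ⟨r, hr⟩ := hrp
    have ha := inv2_mem_allowed hQ H.hdim H.ts g.1.2 g2 g1
    set t := ((g : isoGroup Q) : V ≃ₗ[F] V) with ht
    have hi : inv2 pf t = ((inv2 pf t).1, (inv2 pf t).2) := rfl
    rw [hi, mem_allowed, inv2_fst] at ha
    show ((((inv2 pf t).1, (inv2 pf t).2), (invO Q m L t).2)) ∈ _
    rw [mem_allowedO, inv2_fst]
    by_cases he2 : Eps Q m L t
    · right; right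
      obtain ⟨h1, h2, h3⟩ := he2
      have hwm := frames_w_eq H (ts_range g.1.2 h2) h1
      refine ⟨hwm, ?_, h1, (inv2_snd _ _).mpr h2, invO_snd.mpr ⟨h1, h2, h3⟩⟩
      rw [← h1]
      exact ⟨r, hr⟩
    · have he3 : (invO Q m L t).2 = false := by
        rw [Bool.eq_false_iff]
        intro h
        exact he2 (invO_snd.mp h)
      rcases ha with ⟨h1, h2, h3⟩ | ⟨h1, r', h2, h3, h4⟩
      · left
        refine ⟨r, by omega, by omega, ?_, h1, he3⟩
        rw [Nat.le_div_iff_mul_le (by norm_num)]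
        omega
      · right; left
        exact ⟨r', h2, h3, h4, h1, he3⟩
  · rintro ⟨⟨s, b⟩, ε⟩ hsb
    rcases mem_allowedO.mp hsb with ⟨r, rfl, h1, h2, rfl, rfl⟩ | ⟨r, rfl, h1, h2, rfl, rfl⟩ | ⟨h1, h2, hs, rfl, rfl⟩
    · have hr2 : 2 * r ≤ m := by
        have := (Nat.le_div_iff_mul_le (by norm_num)).mp h2
        omega
      obtain ⟨t, ht, t2, t1, hinv, -⟩ := exists_of_id (s := 2 * r) (by omega) hQ (hyy.comp _ (Fin.castLE_injective hr2))
        (fun i j => hyyT _ _) (fun i => hyyQ _)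
      have hfin : finrank F (LinearMap.range (nOf t)) = 2 * r := congrArg Prod.fst hinv
      obtain ⟨g, hg, rfl⟩ := hmk t ht t2 t1 (by rw [rp_eq_zero_iff_even, hfin]; simp)
      refine ⟨g, hg, ?_⟩
      apply Prod.ext hinv
      rw [Bool.eq_false_iff]
      intro h
      have h3 := (invO_snd.mp h).2.1
      rw [← inv2_snd, hinv] at h3
      simp at h3
    · have hr2 : 2 * r ≤ w := by
        have := (Nat.le_div_iff_mul_le (by norm_num)).mp h2
        omega
      obtain ⟨t, ht, t2, t1, hinv, hran⟩ := exists_of_swap h1 hQ (he.comp _ (sumEmb_inj hr2))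
        (fun i j => heT _ _) (fun i => heQ _)
      have hfin : finrank F (LinearMap.range (nOf t)) = 2 * r := congrArg Prod.fst hinv
      obtain ⟨g, hg, rfl⟩ := hmk t ht t2 t1 (by rw [rp_eq_zero_iff_even, hfin]; simp)
      refine ⟨g, hg, ?_⟩
      apply Prod.ext hinv
      rw [Bool.eq_false_iff]
      intro h
      obtain ⟨h3, h4, h5⟩ := invO_snd.mp h
      have hle : LinearMap.range (nOf ((g : isoGroup Q) : V ≃ₗ[F] V)) ≤ L := by
        rw [hran, hLdef]
        apply Submodule.span_mono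
        rintro _ ⟨i, rfl⟩
        exact ⟨_, rfl⟩
      rw [par, inf_eq_right.mpr hle, h3] at h5
      simp at h5
    · have hs' : m = s := hs.symm
      subst hs'
      obtain ⟨r, hr⟩ := h2
      have hr2 : 2 * r ≤ w := by omega
      have hr1 : 1 ≤ r := by omega
      obtain ⟨t, ht, t2, t1, hinv, hran⟩ := exists_of_swap hr1 hQ (he.comp _ (sumEmb_inj hr2))
        (fun i j => heT _ _) (fun i => heQ _)
      have hfin : finrank F (LinearMap.range (nOf t)) = 2 * r := congrArg Prod.fst hinv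
      have hle : LinearMap.range (nOf t) ≤ L := by
        rw [hran, hLdef]
        apply Submodule.span_mono
        rintro _ ⟨i, rfl⟩
        exact ⟨_, rfl⟩
      have hRL : LinearMap.range (nOf t) = L :=
        Submodule.eq_of_le_of_finrank_le hle (by rw [hfin, hLfin]; omega)
      have htalt : ∀ x, pf x (nOf t x) = 0 := by
        rw [← inv2_snd, hinv]
      -- conjugate by a reflection
      have hv : Q (yy ⟨0, by omega⟩) ≠ 0 := by
        rw [hyyQ]
        exact one_ne_zero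
      set ρ := refl Q (yy ⟨0, by omega⟩) with hρ
      have hρm : ρ ∈ isoGroup Q := refl_mem Q _
      have hρ1 : rp ρ = 1 := rp_refl hQ hv
      have hfin' : finrank F (LinearMap.range (nOf (ρ * t * ρ⁻¹))) = 2 * r := by rw [finrank_conj hρm, hfin]
      have t2' : (ρ * t * ρ⁻¹) * (ρ * t * ρ⁻¹) = 1 := by
        calc (ρ * t * ρ⁻¹) * (ρ * t * ρ⁻¹) = ρ * (t * t) * ρ⁻¹ := by group
          _ = 1 := by rw [t2]; group
      have t1' : ρ * t * ρ⁻¹ ≠ 1 := by
        intro h0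
        apply t1
        have : t = ρ⁻¹ * (ρ * t * ρ⁻¹) * ρ := by group
        rw [this, h0]
        group
      obtain ⟨g, hg, hgt⟩ := hmk _ (Subgroup.mul_mem _ (Subgroup.mul_mem _ hρm ht) (Subgroup.inv_mem _ hρm)) t2' t1'
        (by rw [rp_eq_zero_iff_even, hfin']; simp)
      refine ⟨g, hg, ?_⟩
      show invO Q m L ((g : isoGroup Q) : V ≃ₗ[F] V) = _
      rw [hgt]
      apply Prod.ext
      · show inv2 pf (ρ * t * ρ⁻¹) = (m, true)
        rw [inv2_conj_iso hρm, hinv]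
        congr 1
        omega
      · show (invO Q m L (ρ * t * ρ⁻¹)).2 = true
        rw [invO_snd]
        refine ⟨by rw [hfin']; omega, (alt_conj_iff hρm).mpr htalt, ?_⟩
        have h5 := par_conj H hgen hL ht hρm (by omega) htalt
        rw [h5, hρ1, hRL, par_self hQ hgen (hLfin.trans h1)]
        simp

end Cfsg.Agent.Lib.Inv2.OmegaCount
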