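import Mathlib
import Cfsg.Agent.Lib.Inv2.OmegaCount

/-!
# Generation by reflections without totally singular planes (e.g. `O⁻₄(2)`); the transfer to `Ω`
-/

set_option autoImplicit false
set_option linter.unusedSectionVars false
set_option linter.unusedSimpArgs false

namespace Cfsg.Agent.Lib.Inv2.OmegaFinal

open Module Cfsg.Agent.Lib.Inv2.Core Cfsg.Agent.Lib.Inv2.Group Cfsg.Agent.Lib.Inv2.Count
  Cfsg.Agent.Lib.Inv2.Orth Cfsg.Agent.Lib.Witt.Quadratic Cfsg.Agent.Lib.QuadFn.MaxSingular
  Cfsg.Agent.Lib.Orth.Refl Cfsg.Agent.Lib.Orth.Wall Cfsg.Agent.Lib.Orth.Gen Cfsg.Agent.Lib.Orth.Spin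
  Cfsg.Agent.Lib.Orth.Omega Cfsg.Agent.Lib.Orth.Parity Cfsg.Agent.Lib.Orth.Trans QuadraticMap
  Cfsg.Agent.Lib.Inv2.OmegaCount

variable {F V : Type*} [Field F] [AddCommGroup V] [Module F V] {Q : QuadraticForm F V}

/-- The Cartan-Dieudonné-Scherk generation theorem when there are no totally singular planes. -/
theorem mem_W_of_no_pair [FiniteDimensional F V] (hQ : (polarBilin Q).Nondegenerate)
    (hno : ∀ a b : V, SPair Q a b → LinearIndependent F ![a, b] → False) {g : V ≃ₗ[F] V} (hg : g ∈ isoGroup Q) :
    g ∈ W Q := by
  induction hn : Module.finrank F (movSp g) using Nat.strong_induction_on generalizing g with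
  | _ n ih =>
    by_cases hs : ∃ x, Q (x - g x) ≠ 0
    · -- Scherk step: a reflection lowers the rank
      obtain ⟨x, hx⟩ := hs
      set v := x - g x with hv
      have hpolv : polar Q (g x) v = - Q v := by
        have h1 : Q v = 2 * Q x - polar Q x (g x) := by
          rw [hv, Q_sub, hg x]; ring
        rw [hv, polar_sub_right, polar_self_eq, hg x, polar_comm Q (g x) x, h1]
        ring
      have hg' : refl Q v * g ∈ isoGroup Q := Subgroup.mul_mem _ (refl_mem Q v) hg
      have hfx : x ∈ fixSp (refl Q v * g) := by
        rw [mem_fixSp]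
        show refl Q v (g x) = x
        rw [refl_apply, hpolv]
        have : (Q v)⁻¹ * - Q v = -1 := by field_simp
        rw [this, hv]
        simp
      have hxg : x ∉ fixSp g := by
        intro h
        apply hx
        rw [hv, mem_fixSp.mp h, sub_self, QuadraticMap.map_zero]
      have hle : fixSp g ≤ fixSp (refl Q v * g) := by
        intro r hr
        rw [mem_fixSp] at hr ⊢
        show refl Q v (g r) = r
        rw [hr]
        apply refl_fix
        rw [hv, polar_sub_right, ← polar_eq_of_preserves g hg r x, hr, sub_self]
      have hlt := finrank_movSp_lt hle hfx hxg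
      rw [hn] at hlt
      have hW := ih _ hlt hg' rfl
      have : g = refl Q v * (refl Q v * g) := by
        rw [← mul_assoc, refl_mul_self, one_mul]
      rw [this]
      exact Subgroup.mul_mem _ (refl_mem_W Q v) hW
    · push Not at hs
      by_cases hone : ∀ x, g x = x
      · have : g = 1 := by
          ext x
          exact hone x
        rw [this]
        exact Subgroup.one_mem _
      push Not at hone
      obtain ⟨x, hx⟩ := hone
      set a := x - g x with ha
      have ha0 : a ≠ 0 := sub_ne_zero.mpr (Ne.symm hx)
      have hQa : Q a = 0 := hs x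
      -- `movSp g` is totally singular
      have hQM : ∀ m ∈ movSp g, Q m = 0 := by
        intro m hm
        obtain ⟨y, rfl⟩ := mem_movSp.mp hm
        exact hs y
      have hpolM : ∀ m ∈ movSp g, ∀ m' ∈ movSp g, polar Q m m' = 0 := by
        intro m hm m' hm'
        simp only [polar, hQM _ hm, hQM _ hm', hQM _ (Submodule.add_mem _ hm hm'), sub_zero]
      have haM : a ∈ movSp g := sub_mem_movSp g x
      -- a vector `z` with `f(a, z) ≠ 0`
      obtain ⟨z, hz⟩ : ∃ z, polar Q a z ≠ 0 := by
        by_contra hcon
        push Not at hcon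
        exact ha0 (hQ.1 a hcon)
      have hb₀M : z - g z ∈ movSp g := sub_mem_movSp g z
      have hpgx : polar Q (g x) (z - g z) = - polar Q a z := by
        rw [polar_sub_right, polar_eq_of_preserves g hg x z, ha, polar_sub_left]
        ring
      set c := (polar Q a z)⁻¹ with hc
      set b := c • (z - g z) with hb
      have hbM : b ∈ movSp g := Submodule.smul_mem _ _ hb₀M
      have hpgxb : polar Q (g x) b = -1 := by
        rw [hb, polar_smul_right, hpgx, hc]
        simp only [smul_eq_mul]
        field_simp
      have hab : SPair Q a b := ⟨hQa, hQM b hbM, hpolM a haM b hbM⟩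
      have hpxa : polar Q x a = 0 := by
        have h1 : Q a = 2 * Q x - polar Q x (g x) := by
          rw [ha, Q_sub, hg x]; ring
        rw [ha, polar_sub_right, polar_self_eq, ← h1]
        exact hQa
      have hpgxa : polar Q (g x) a = 0 := by
        have : g x = x - a := by rw [ha]; abel
        rw [this, polar_sub_left, hpxa, hab.aa, sub_zero]
      have hli : LinearIndependent F ![a, b] := by
        rw [LinearIndependent.pair_iff]
        intro s t hst
        have h1 := congrArg (fun w => polar Q (g x) w) hst
        simp only [polar_add_right, polar_smul_right, hpgxa, hpgxb, polar_zero_right, smul_eq_mul,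
          mul_zero, zero_add, mul_neg, mul_one, neg_eq_zero] at h1
        subst h1
        simp only [zero_smul, add_zero] at hst
        exact ⟨(smul_eq_zero.mp hst).resolve_right ha0, rfl⟩
      exact (hno a b hab hli).elim

theorem hgen_of_no_plane [FiniteDimensional F V] (hQ : (polarBilin Q).Nondegenerate)
    (hts : ∀ U : Submodule F V, TS (⇑Q) U → finrank F U ≤ 1) : ∀ g ∈ isoGroup Q, g ∈ W Q := by
  intro g hg
  apply mem_W_of_no_pair hQ _ hg
  intro a b hab hli
  have hts2 : TS (⇑Q) (Submodule.span F (Set.range ![a, b])) := by
    intro v hv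
    obtain ⟨c, rfl⟩ := (Submodule.mem_span_range_iff_exists_fun F).mp hv
    rw [Fin.sum_univ_two]
    show Q (c 0 • a + c 1 • b) = 0
    rw [Q_add, QuadraticMap.map_smul, QuadraticMap.map_smul, polar_smul_left, polar_smul_right, hab.Qa, hab.Qb, hab.ab]
    simp
  have := hts _ hts2
  rw [finrank_span_eq_card hli] at this
  simp at this

/-- The commutator subgroups of isomorphic groups are isomorphic. -/
noncomputable def commEquiv {G H : Type*} [Group G] [Group H] (e : G ≃* H) : commutator G ≃* commutator H :=
  (e.subgroupMap (commutator G)).trans (MulEquiv.subgroupCongr (by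
    show (commutator G).map (e : G →* H) = commutator H
    rw [commutator, commutator, Subgroup.map_commutator, Subgroup.map_top_of_surjective _ e.surjective]))

end Cfsg.Agent.Lib.Inv2.OmegaFinal
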