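import Mathlib
import Cfsg.Agent.Lib.Inv2.OmegaFinal
import Cfsg.Prelude.Def_SporadicB

/-!
# Orthogonal transvections over the field of two elements form a class of 3-transpositions
-/

set_option autoImplicit false
set_option linter.unusedSectionVars false
set_option linter.unusedSimpArgs false

namespace Cfsg.Agent.Lib.Inv2.ThreeTrans

open Module Cfsg.Agent.Lib.Witt.Quadratic Cfsg.Agent.Lib.Orth.Refl Cfsg.Agent.Lib.Orth.Wall
  Cfsg.Agent.Lib.Orth.Gen Cfsg.Agent.Lib.Orth.Spin Cfsg.Agent.Lib.Inv2.Group QuadraticMap Matrix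

variable {F V : Type*} [Field F] [AddCommGroup V] [Module F V] {Q : QuadraticForm F V}

/-- An isometry of rank one is a reflection. -/
theorem eq_refl_of_rank_one [FiniteDimensional F V] (hQ : (polarBilin Q).Nondegenerate) {g : V ≃ₗ[F] V}
    (hg : g ∈ isoGroup Q) (hr : finrank F (LinearMap.range (nOf g)) = 1) :
    ∃ v, Q v ≠ 0 ∧ g = refl Q v := by
  obtain ⟨⟨v, hvm⟩, hv0, hv⟩ := finrank_eq_one_iff'.mp hr
  have hv0' : v ≠ 0 := fun h => hv0 (Subtype.ext h)
  have hlam : ∀ x, ∃ c : F, x - g x = c • v := by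
    intro x
    obtain ⟨c, hc⟩ := hv ⟨x - g x, ⟨x, rfl⟩⟩
    exact ⟨c, (congrArg Subtype.val hc).symm⟩
  -- the fixed space is orthogonal to `v`
  have hperp : ∀ r, g r = r → polar Q r v = 0 := fun r hr => (mem_movSp_iff hQ hg v).mp hvm r (mem_fixSp.mpr hr)
  obtain ⟨x₀, hx₀⟩ : ∃ x, polar Q x v ≠ 0 := by
    by_contra hcon
    push Not at hcon
    exact hv0' (hQ.2 v hcon)
  have hkey : ∀ x (c : F), x - g x = c • v → c * (c * Q v) = c * polar Q x v := by
    intro x c hc
    have h1 := Cfsg.Agent.Lib.Inv2.Orth.Q_nOf hg x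
    rw [nOf_apply, hc, QuadraticMap.map_smul, polar_smul_right, smul_eq_mul, smul_eq_mul] at h1
    linear_combination h1
  have hcx : ∀ x (c : F), x - g x = c • v → polar Q x v ≠ 0 → c ≠ 0 := by
    rintro x c hc hp rfl
    rw [zero_smul, sub_eq_zero] at hc
    exact hp (hperp x hc.symm)
  have hQv : Q v ≠ 0 := by
    obtain ⟨c, hc⟩ := hlam x₀
    have hc0 := hcx x₀ c hc hx₀
    have := hkey x₀ c hc
    intro h0
    rw [h0, mul_zero, mul_zero] at this
    exact (mul_ne_zero hc0 hx₀) this.symm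
  refine ⟨v, hQv, ?_⟩
  ext x
  obtain ⟨c, hc⟩ := hlam x
  rw [refl_apply]
  have h1 := hkey x c hc
  have h2 : c = (Q v)⁻¹ * polar Q x v := by
    by_cases hc0 : c = 0
    · subst hc0
      rw [zero_smul, sub_eq_zero] at hc
      rw [hperp x hc.symm, mul_zero]
    · have h3 : c * Q v = polar Q x v := mul_left_cancel₀ hc0 h1
      rw [← h3]
      field_simp
  rw [← h2, ← hc]
  abel

theorem finrank_range_nOf_refl {v : V} (hQ : (polarBilin Q).Nondegenerate) (hv : Q v ≠ 0) :
    finrank F (LinearMap.range (nOf (refl Q v))) = 1 := by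
  have hv0 : v ≠ 0 := by
    rintro rfl
    simp at hv
  have h : LinearMap.range (nOf (refl Q v)) = Submodule.span F {v} := by
    apply le_antisymm
    · rintro _ ⟨x, rfl⟩
      rw [nOf_apply, refl_apply]
      simp only [sub_sub_cancel]
      exact Submodule.smul_mem _ _ (Submodule.mem_span_singleton_self v)
    · rw [Submodule.span_singleton_le_iff_mem]
      obtain ⟨x₀, hx₀⟩ : ∃ x, polar Q x v ≠ 0 := by
        by_contra hcon
        push Not at hcon
        exact hv0 (hQ.2 v hcon)
      refine ⟨(Q v * (polar Q x₀ v)⁻¹) • x₀, ?_⟩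
      rw [nOf_apply, refl_apply]
      simp only [sub_sub_cancel, polar_smul_left, smul_eq_mul]
      have : (Q v)⁻¹ * (Q v * (polar Q x₀ v)⁻¹ * polar Q x₀ v) = 1 := by
        field_simp
      rw [this, one_smul]
  rw [h]
  exact finrank_span_singleton hv0

section two

variable [Fact (Nat.card F = 2)]

theorem eq_one_of_ne_zero {a : F} (ha : a ≠ 0) : a = 1 := by
  classical
  have hc : Nat.card F = 2 := Fact.out
  haveI : Finite F := Nat.finite_of_card_ne_zero (by omega)
  haveI := Fintype.ofFinite F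
  rw [Nat.card_eq_fintype_card] at hc
  by_contra h1
  have : ({0, 1, a} : Finset F).card = 3 := by
    rw [Finset.card_insert_of_notMem, Finset.card_pair (Ne.symm h1)]
    simp [Ne.symm ha]
  have h2 := Finset.card_le_univ ({0, 1, a} : Finset F)
  omega

theorem refl_mul_pow (hQ : (polarBilin Q).Nondegenerate) {u v : V} (hu : Q u ≠ 0) (hv : Q v ≠ 0) :
    (refl Q u * refl Q v) ^ 2 = 1 ∨ (refl Q u * refl Q v) ^ 3 = 1 := by
  have hu1 : Q u = 1 := eq_one_of_ne_zero hu
  have hv1 : Q v = 1 := eq_one_of_ne_zero hv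
  by_cases hp : polar Q u v = 0
  · left
    rw [pow_two]
    calc refl Q u * refl Q v * (refl Q u * refl Q v) = refl Q u * (refl Q v * refl Q u) * refl Q v := by group
      _ = refl Q u * (refl Q u * refl Q v) * refl Q v := by rw [refl_comm_of_ortho Q (by rw [polar_comm]; exact hp)]
      _ = (refl Q u * refl Q u) * (refl Q v * refl Q v) := by group
      _ = 1 := by rw [refl_mul_self, refl_mul_self, one_mul]
  · right
    have hp1 : polar Q u v = 1 := eq_one_of_ne_zero hp
    have hvu : polar Q v u = 1 := by rw [polar_comm]; exact hp1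
    -- `r_u v = v - u` and `r_v u = u - v`
    have h1 : refl Q u v = v - u := by
      rw [refl_apply, hu1, hvu]
      simp
    have h2 : refl Q v u = u - v := by
      rw [refl_apply, hv1, hp1]
      simp
    have h3 := conj_refl Q (refl_mem Q u) v
    have h4 := conj_refl Q (refl_mem Q v) u
    rw [refl_inv, h1] at h3
    rw [refl_inv, h2] at h4
    have h5 : refl Q (u - v) = refl Q (v - u) := by
      have : u - v = (-1 : F) • (v - u) := by
        rw [neg_smul, one_smul, neg_sub]
      rw [this, refl_smul Q (by simp)]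
    calc (refl Q u * refl Q v) ^ 3 = (refl Q u * refl Q v * refl Q u) * (refl Q v * refl Q u * refl Q v) := by
          simp only [pow_succ, pow_zero, one_mul, mul_assoc]
      _ = refl Q (v - u) * refl Q (u - v) := by rw [h3, h4]
      _ = 1 := by rw [h5, refl_mul_self]

/-- The abstract statement. -/
theorem threeTrans [FiniteDimensional F V] [Finite F] (hQ : (polarBilin Q).Nondegenerate) (hgen : ∀ g ∈ isoGroup Q, g ∈ W Q)
    (hne : ∃ v, Q v ≠ 0) :
    IsThreeTranspositionClass {g : isoGroup Q | finrank F (LinearMap.range (nOf (g : V ≃ₗ[F] V))) = 1} := by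
  have hmem : ∀ {g : isoGroup Q}, finrank F (LinearMap.range (nOf (g : V ≃ₗ[F] V))) = 1 →
      ∃ v, Q v ≠ 0 ∧ (g : V ≃ₗ[F] V) = refl Q v := fun h => eq_refl_of_rank_one hQ (Subtype.property _) h
  let ρ : V → isoGroup Q := fun v => ⟨refl Q v, refl_mem Q v⟩
  have hρmem : ∀ {v}, Q v ≠ 0 → finrank F (LinearMap.range (nOf (ρ v : V ≃ₗ[F] V))) = 1 :=
    fun hv => finrank_range_nOf_refl hQ hv
  refine ⟨⟨?_, ?_⟩, ?_, ?_⟩
  · intro d hd
    obtain ⟨v, hv, hd2⟩ := hmem hd
    have h1 : d = ρ v := Subtype.ext hd2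
    rw [Group.orderOf_eq_two_iff]
    refine ⟨?_, ?_⟩
    · rw [h1]
      exact Subtype.ext (refl_mul_self Q v)
    · rintro rfl
      have : finrank F (LinearMap.range (nOf ((1 : isoGroup Q) : V ≃ₗ[F] V))) = 1 := hd
      have h0 : nOf ((1 : isoGroup Q) : V ≃ₗ[F] V) = 0 := by
        ext x
        simp
      rw [h0, LinearMap.range_zero, finrank_bot] at this
      exact zero_ne_one this
  · intro d hd e he
    obtain ⟨u, hu, hd2⟩ := hmem hd
    obtain ⟨v, hv, he2⟩ := hmem he
    rcases refl_mul_pow hQ hu hv with h | h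
    · left
      apply Subtype.ext
      show ((d : V ≃ₗ[F] V) * (e : V ≃ₗ[F] V)) ^ 2 = 1
      rw [hd2, he2, h]
    · right
      apply Subtype.ext
      show ((d : V ≃ₗ[F] V) * (e : V ≃ₗ[F] V)) ^ 3 = 1
      rw [hd2, he2, h]
  · obtain ⟨v₀, hv₀⟩ := hne
    refine ⟨ρ v₀, hρmem hv₀, ?_⟩
    ext g
    show _ ↔ IsConj _ _
    constructor
    · intro hg
      obtain ⟨v, hv, hg2⟩ := hmem hg
      have hv01 : Q v₀ = 1 := eq_one_of_ne_zero hv₀
      have hv1 : Q v = 1 := eq_one_of_ne_zero hv
      have hv00 : v₀ ≠ 0 := by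
        rintro rfl
        simp at hv₀
      have hv0 : v ≠ 0 := by
        rintro rfl
        simp at hv
      obtain ⟨σ, hσ, hσv⟩ := witt_family hQ (fun _ : Unit => v₀) (fun _ : Unit => v)
        (LinearIndependent.of_subsingleton () hv00) (LinearIndependent.of_subsingleton () hv0)
        (fun _ _ => by simp only [polar_self_eq, hv01, hv1]) (fun _ => by rw [hv01, hv1])
      refine isConj_iff.mpr ⟨⟨σ, hσ⟩, Subtype.ext ?_⟩
      show σ * refl Q v₀ * σ⁻¹ = (g : V ≃ₗ[F] V)
      rw [conj_refl Q hσ, hσv (), hg2]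
    · intro hc
      obtain ⟨c, rfl⟩ := isConj_iff.mp hc
      have h := hρmem hv₀
      have h3 : ((c * ρ v₀ * c⁻¹ : isoGroup Q) : V ≃ₗ[F] V) = refl Q (c.1 v₀) := conj_refl Q c.2 v₀
      show finrank F (LinearMap.range (nOf ((c * ρ v₀ * c⁻¹ : isoGroup Q) : V ≃ₗ[F] V))) = 1
      rw [h3]
      apply finrank_range_nOf_refl hQ
      rw [c.2 v₀]
      exact hv₀
  · rw [eq_top_iff]
    rintro ⟨g, hg⟩ -
    have hgW := hgen g hg
    -- words of reflections
    obtain ⟨vs, hvs, rfl⟩ := exists_list_of_mem_W hgW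
    have key : ∀ (ws : List V) (hws : ∀ v ∈ ws, Q v ≠ 0) (hm : (ws.map (refl Q)).prod ∈ isoGroup Q),
        (⟨(ws.map (refl Q)).prod, hm⟩ : isoGroup Q) ∈
          Subgroup.closure {g : isoGroup Q | finrank F (LinearMap.range (nOf (g : V ≃ₗ[F] V))) = 1} := by
      intro ws
      induction ws with
      | nil =>
        intro _ hm
        exact Subgroup.one_mem _
      | cons v ws ih =>
        intro hws hm
        have hv := hws v List.mem_cons_self
        have hm' : (ws.map (refl Q)).prod ∈ isoGroup Q :=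
          (rp_word hQ ws (fun w hw => hws w (List.mem_cons_of_mem _ hw))).1
        have e : (⟨((v :: ws).map (refl Q)).prod, hm⟩ : isoGroup Q) = ρ v * ⟨(ws.map (refl Q)).prod, hm'⟩ := by
          apply Subtype.ext
          simp [ρ]
        rw [e]
        exact Subgroup.mul_mem _ (Subgroup.subset_closure (hρmem hv))
          (ih (fun w hw => hws w (List.mem_cons_of_mem _ hw)) hm')
    exact key vs hvs hg

end two

/-- Transfer along a group isomorphism. -/
theorem threeTrans_congr {G H : Type*} [Group G] [Group H] (e : G ≃* H) {D : Set H}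
    (h : IsThreeTranspositionClass D) : IsThreeTranspositionClass (e ⁻¹' D) := by
  obtain ⟨⟨h1, h2⟩, ⟨d, hd, hc⟩, h3⟩ := h
  refine ⟨⟨?_, ?_⟩, ⟨e.symm d, by simpa using hd, ?_⟩, ?_⟩
  · intro x hx
    rw [← MulEquiv.orderOf_eq e]
    exact h1 _ hx
  · intro x hx y hy
    rcases h2 _ hx _ hy with h | h
    · left
      apply e.injective
      rw [map_pow, map_mul, h, map_one]
    · right
      apply e.injective
      rw [map_pow, map_mul, h, map_one]
  · ext x
    show e x ∈ D ↔ IsConj (e.symm d) x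
    rw [hc]
    show IsConj d (e x) ↔ IsConj (e.symm d) x
    constructor
    · intro hx
      have := MonoidHom.map_isConj e.symm.toMonoidHom hx
      simpa using this
    · intro hx
      have := MonoidHom.map_isConj e.toMonoidHom hx
      simpa using this
  · rw [eq_top_iff]
    intro x _
    have hx : e x ∈ Subgroup.closure D := by rw [h3]; trivial
    have h4 : (Subgroup.closure D).map e.symm.toMonoidHom ≤ Subgroup.closure (e ⁻¹' D) := by
      rw [MonoidHom.map_closure, Subgroup.closure_le]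
      rintro _ ⟨y, hy, rfl⟩
      apply Subgroup.subset_closure
      show e (e.symm y) ∈ D
      simpa using hy
    apply h4
    exact ⟨e x, hx, by simp⟩

/-- The link with the rank of a matrix. -/
theorem rank_sub_one_eq {ι : Type} [Fintype ι] [DecidableEq ι] (Q : QuadraticForm F (ι → F))
    (g : Cfsg.isometryGroup F ⇑Q) :
    (((g : GL ι F) : Matrix ι ι F) - 1).rank =
      finrank F (LinearMap.range (nOf ((Cfsg.Agent.Lib.Orth.Bridge.toIso Q g : isoGroup Q) : (ι → F) ≃ₗ[F] (ι → F)))) := by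
  have hR : LinearMap.range ((((g : GL ι F) : Matrix ι ι F) - 1).mulVecLin) =
      LinearMap.range (nOf ((Cfsg.Agent.Lib.Orth.Bridge.toIso Q g : isoGroup Q) : (ι → F) ≃ₗ[F] (ι → F))) := by
    have hf : ∀ x, nOf ((Cfsg.Agent.Lib.Orth.Bridge.toIso Q g : isoGroup Q) : (ι → F) ≃ₗ[F] (ι → F)) x =
        - (((g : GL ι F) : Matrix ι ι F) - 1).mulVecLin x := by
      intro x
      rw [nOf_apply, Cfsg.Agent.Lib.Orth.Bridge.toIso_apply]
      simp [Matrix.sub_mulVec]
    apply le_antisymm
    · rintro _ ⟨x, rfl⟩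
      refine ⟨-x, ?_⟩
      rw [hf, map_neg, neg_neg]
    · rintro _ ⟨x, rfl⟩
      refine ⟨-x, ?_⟩
      rw [hf, map_neg]
  rw [Matrix.rank, hR]

end Cfsg.Agent.Lib.Inv2.ThreeTrans
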