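import Mathlib
import Cfsg.Agent.Lib.Inv2.OmegaFinal
import Cfsg.Agent.Lib.Inv2.ThreeTrans

/-!
# Involutions of `O` and `Ω` in characteristic two: matrix statements
-/

set_option autoImplicit false
set_option linter.unusedSectionVars false
set_option linter.unusedSimpArgs false

namespace Cfsg.Agent.Lib.Inv2.Lie2

open Module Matrix Cfsg Cfsg.Agent.Lib.Inv2.Core Cfsg.Agent.Lib.Inv2.Group Cfsg.Agent.Lib.Inv2.Count
  Cfsg.Agent.Lib.Inv2.Orth Cfsg.Agent.Lib.Inv2.OmegaCount Cfsg.Agent.Lib.Witt.Quadratic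
  Cfsg.Agent.Lib.QuadFn.MaxSingular Cfsg.Agent.Lib.Orth.Refl Cfsg.Agent.Lib.Orth.Wall Cfsg.Agent.Lib.Orth.Gen
  Cfsg.Agent.Lib.Orth.Spin Cfsg.Agent.Lib.Orth.Omega Cfsg.Agent.Lib.Orth.Parity Cfsg.Agent.Lib.Orth.Trans
  Cfsg.Agent.Lib.Orth.Bridge Cfsg.Agent.Lib.Orth.Closure Cfsg.Agent.Lib.Inv2.ThreeTrans
  Cfsg.Agent.Lib.Classical.MatrixBridge QuadraticMap

variable {F : Type*} [Field F] [Fintype F] [CharP F 2] {ι : Type} [Fintype ι] [DecidableEq ι]
  (Q : QuadraticForm F (ι → F))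

local notation "pf" => (polarBilin Q : LinearMap.BilinForm F (ι → F))

/-- The linear isometry attached to a matrix isometry. -/
noncomputable abbrev lin (g : isometryGroup F ⇑Q) : (ι → F) ≃ₗ[F] (ι → F) := (toIso Q g : isoGroup Q)

theorem lin_mem (g : isometryGroup F ⇑Q) : lin Q g ∈ isoGroup Q := (toIso Q g).2

theorem lin_mul (g h : isometryGroup F ⇑Q) : lin Q (g * h) = lin Q g * lin Q h := by
  simp [lin]

theorem lin_inv (g : isometryGroup F ⇑Q) : lin Q g⁻¹ = (lin Q g)⁻¹ := by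
  simp [lin]

theorem lin_conj (c g : isometryGroup F ⇑Q) : lin Q (c * g * c⁻¹) = lin Q c * lin Q g * (lin Q c)⁻¹ := by
  rw [lin_mul, lin_mul, lin_inv]

theorem lin_sq {g : isometryGroup F ⇑Q} (hg : orderOf g = 2) : lin Q g * lin Q g = 1 := by
  rw [← lin_mul, (Cfsg.Agent.Lib.Inv2.Group.orderOf_eq_two_iff.mp hg).1]
  simp [lin]

theorem range_toLin_eq (g : isometryGroup F ⇑Q) :
    LinearMap.range (Matrix.toLin' (((g : GL ι F) : Matrix ι ι F) - 1)) = LinearMap.range (nOf (lin Q g)) := by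
  have hf : ∀ x, nOf (lin Q g) x = - Matrix.toLin' (((g : GL ι F) : Matrix ι ι F) - 1) x := by
    intro x
    rw [nOf_apply, toIso_apply, Matrix.toLin'_apply]
    simp [Matrix.sub_mulVec]
  apply le_antisymm
  · rintro _ ⟨x, rfl⟩
    refine ⟨-x, ?_⟩
    rw [hf, map_neg, neg_neg]
  · rintro _ ⟨x, rfl⟩
    refine ⟨-x, ?_⟩
    rw [hf, map_neg]

theorem alt_iff (g : isometryGroup F ⇑Q) :
    (∀ v, Q (v + ((g : GL ι F) : Matrix ι ι F) *ᵥ v) = 0) ↔ ∀ x, pf x (nOf (lin Q g) x) = 0 := by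
  have h1 : ∀ v, v + ((g : GL ι F) : Matrix ι ι F) *ᵥ v = nOf (lin Q g) v := by
    intro v
    rw [nOf_apply, sub_eq_add_char_two F, toIso_apply]
  have h2 : ∀ x, pf x (nOf (lin Q g) x) = Q (nOf (lin Q g) x) := fun x => (Q_nOf (lin_mem Q g) x).symm
  simp only [h1, h2]

/-- Conjugacy in `O` is conjugacy in `Sp`. -/
theorem conj_iff_polar (hQ : (polarBilin Q).Nondegenerate) (t s : isometryGroup F ⇑Q) (ht : orderOf t = 2)
    (hs : orderOf s = 2) :
    IsConj t s ↔ ∃ g ∈ preserving (Units.coeHom (Matrix ι ι F)) (fun u v => Q (u + v) - Q u - Q v),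
      g * (t : GL ι F) * g⁻¹ = (s : GL ι F) := by
  constructor
  · intro hc
    obtain ⟨c, rfl⟩ := isConj_iff.mp hc
    refine ⟨(c : GL ι F), ?_, rfl⟩
    intro u v
    have h1 := (mem_isometryGroup_iff _ _).mp c.2
    show Q (((c : GL ι F) : Matrix ι ι F) *ᵥ u + ((c : GL ι F) : Matrix ι ι F) *ᵥ v) -
      Q (((c : GL ι F) : Matrix ι ι F) *ᵥ u) - Q (((c : GL ι F) : Matrix ι ι F) *ᵥ v) = _
    rw [← Matrix.mulVec_add, h1, h1, h1]
  · rintro ⟨g, hg, hc⟩
    have hgpol : ∀ u v, pf (glToLin g u) (glToLin g v) = pf u v := by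
      intro u v
      have := hg u v
      exact this
    have hσ : glToLin g * lin Q t * (glToLin g)⁻¹ = lin Q s := by
      have h1 : lin Q t = glToLin (t : GL ι F) := rfl
      have h2 : lin Q s = glToLin (s : GL ι F) := rfl
      rw [h1, h2, ← hc]
      simp
    have hinv : inv2 pf (lin Q t) = inv2 pf (lin Q s) := by
      rw [← hσ, inv2_conj hgpol]
    obtain ⟨σ, hσm, hσc⟩ := exists_conj hQ (lin_mem Q t) (lin_mem Q s) (lin_sq Q ht) (lin_sq Q hs) hinv
    refine isConj_iff.mpr ⟨(toIso Q).symm ⟨σ, hσm⟩, ?_⟩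
    apply (toIso Q).injective
    apply Subtype.ext
    show _ = lin Q s
    rw [← hσc, map_mul, map_mul, map_inv]
    simp only [Subgroup.coe_mul, Subgroup.coe_inv, MulEquiv.apply_symm_apply]

/-- Membership in `Ω`. -/
theorem mem_omega_iff_even (hQ : (polarBilin Q).Nondegenerate) (h : Fintype.card F ≠ 2 ∨ Fintype.card ι ≠ 4)
    (t : isometryGroup F ⇑Q) :
    t ∈ Omega F ⇑Q ↔ Even (((t : GL ι F) : Matrix ι ι F) - 1).rank := by
  rw [mem_Omega_iff_char_two Q hQ h, rp_eq_zero_iff_even, rank_sub_one_eq]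

theorem exists_L {m w : ℕ} (H : Frames Q m w) :
    ∃ L : Submodule F (ι → F), w = m → TS (⇑Q) L ∧ finrank F L = m := by
  obtain ⟨e, he, heQ, heT⟩ := H.e
  refine ⟨Submodule.span F (Set.range e), fun hw => ⟨ts_span heQ heT, ?_⟩⟩
  rw [finrank_span_eq_card he, Fintype.card_fin, hw]

/-- No splitting outside the exceptional case. -/
theorem omega_conj_nonsplit {m w : ℕ} (H : Frames Q m w) (h : Fintype.card F ≠ 2 ∨ Fintype.card ι ≠ 4)
    (t s : isometryGroup F ⇑Q) (ht : orderOf t = 2) (hs : orderOf s = 2) (hconj : IsConj t s)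
    (hns : ¬ ((((t : GL ι F) : Matrix ι ι F) - 1).rank = m ∧ ∀ v, Q (v + ((t : GL ι F) : Matrix ι ι F) *ᵥ v) = 0)) :
    ∃ g ∈ Omega F ⇑Q, g * t * g⁻¹ = s := by
  have hQ := H.nd
  have hgen := hgen Q hQ h
  obtain ⟨L, hL⟩ := exists_L Q H
  obtain ⟨c, rfl⟩ := isConj_iff.mp hconj
  have hinv : inv2 pf (lin Q (c * t * c⁻¹)) = inv2 pf (lin Q t) := by
    rw [lin_conj, inv2_conj_iso (lin_mem Q c)]
  have hnsT : ¬ Eps Q m L (lin Q t) := by
    rintro ⟨h1, h2, -⟩
    exact hns ⟨by rw [rank_sub_one_eq]; exact h1, (alt_iff Q t).mpr h2⟩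
  have hnsS : ¬ Eps Q m L (lin Q (c * t * c⁻¹)) := by
    rintro ⟨h1, h2, -⟩
    apply hns
    refine ⟨?_, (alt_iff Q t).mpr ?_⟩
    · rw [rank_sub_one_eq]
      have h3 := congrArg Prod.fst hinv
      exact h3.symm.trans h1
    · rw [← inv2_snd, ← hinv, inv2_snd]
      exact h2
  have he : invO Q m L (lin Q t) = invO Q m L (lin Q (c * t * c⁻¹)) := by
    apply Prod.ext hinv.symm
    rw [Bool.eq_iff_iff, invO_snd, invO_snd]
    exact iff_of_false hnsT hnsS
  obtain ⟨σ, hσ, hrp, hc⟩ := exists_conj_omega H hgen hL (lin_mem Q t) (lin_mem Q _) (lin_sq Q ht)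
    (lin_sq Q hs) he
  refine ⟨(toIso Q).symm ⟨σ, hσ⟩, ?_, ?_⟩
  · rw [mem_Omega_iff_char_two Q hQ h]
    simpa using hrp
  · apply (toIso Q).injective
    apply Subtype.ext
    rw [map_mul, map_mul, map_inv]
    simp only [Subgroup.coe_mul, Subgroup.coe_inv, MulEquiv.apply_symm_apply]
    exact hc

/-- The split case. -/
theorem omega_conj_split {m w : ℕ} (H : Frames Q m w) (h : Fintype.card F ≠ 2 ∨ Fintype.card ι ≠ 4)
    (t s : isometryGroup F ⇑Q) (htO : t ∈ Omega F ⇑Q) (hconj : IsConj t s)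
    (hsp : ((((t : GL ι F) : Matrix ι ι F) - 1).rank = m ∧ ∀ v, Q (v + ((t : GL ι F) : Matrix ι ι F) *ᵥ v) = 0)) :
    (∃ g ∈ Omega F ⇑Q, g * t * g⁻¹ = s) ↔
      Even (finrank F ↥(LinearMap.range (Matrix.toLin' (((t : GL ι F) : Matrix ι ι F) - 1)) ⊓
        LinearMap.range (Matrix.toLin' (((s : GL ι F) : Matrix ι ι F) - 1)))) := by
  have hQ := H.nd
  have hgen := hgen Q hQ h
  obtain ⟨hrk, halt⟩ := hsp
  have hm : finrank F (LinearMap.range (nOf (lin Q t))) = m := by rw [← rank_sub_one_eq]; exact hrk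
  have halt' := (alt_iff Q t).mp halt
  have hU := ts_range (lin_mem Q t) halt'
  have hevenm : Even m := by
    rw [← hrk]
    exact (mem_omega_iff_even Q hQ h t).mp htO
  rw [range_toLin_eq, range_toLin_eq]
  -- general formula
  have key : ∀ c : isometryGroup F ⇑Q, c * t * c⁻¹ = s →
      (rp (lin Q c) = 0 ↔ Even (finrank F ↥(LinearMap.range (nOf (lin Q t)) ⊓ LinearMap.range (nOf (lin Q s))))) := by
    intro c hc
    have h1 := rp_eq hQ H.hdim hU hm (hgen _ (lin_mem Q c))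
    rw [← range_nOf_conj, ← lin_conj, hc] at h1
    rw [h1, ZMod.natCast_eq_zero_iff_even]
    have hle : finrank F ↥(LinearMap.range (nOf (lin Q t)) ⊓ LinearMap.range (nOf (lin Q s))) ≤ m := by
      rw [← hm]
      exact Submodule.finrank_mono inf_le_left
    rw [Nat.even_sub hle]
    simp [hevenm]
  constructor
  · rintro ⟨g, hg, hc⟩
    rw [← key g hc]
    exact (mem_Omega_iff_char_two Q hQ h g).mp hg
  · intro he
    obtain ⟨c, hc⟩ := isConj_iff.mp hconj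
    refine ⟨c, ?_, hc⟩
    rw [mem_Omega_iff_char_two Q hQ h]
    exact (key c hc).mpr he

end Cfsg.Agent.Lib.Inv2.Lie2
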